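/-
A normal self-centralizing `p`-subgroup on which every element has centralizer of index at most `p`.
-/
import Mathlib
import Cfsg.Agent.Lib.Fgs.ClassSize
import Cfsg.Agent.Lib.Core.Frattini
import Cfsg.Agent.Lib.Core.Commutator
import Cfsg.Agent.Lib.SolvStruct.Util

set_option autoImplicit false

namespace CfsgLib.ClassSz

open Subgroup CfsgLib.Fgs CfsgLib.Core
open scoped commutatorElement

universe u

variable {G : Type u} [Group G]

theorem eq_zpowers_of_card_dvd_prime [Finite G] {p : ℕ} (hp : p.Prime) {A : Subgroup G}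
    (hA : Nat.card A ∣ p) {a : G} (ha : a ∈ A) (h1 : a ≠ 1) : A = zpowers a := by
  have hle : zpowers a ≤ A := zpowers_le.2 ha
  refine (eq_of_le_of_card_le hle ?_).symm
  have h2 : Nat.card (zpowers a) ∣ p := (card_dvd_of_le hle).trans hA
  rcases (Nat.dvd_prime hp).1 h2 with h3 | h3
  · rw [Nat.card_zpowers, orderOf_eq_one_iff] at h3
    exact absurd h3 h1
  · rw [h3]; exact Nat.le_of_dvd hp.pos hA

theorem eq_of_card_dvd_prime [Finite G] {p : ℕ} (hp : p.Prime) {A B : Subgroup G}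
    (hA : Nat.card A ∣ p) (hB : Nat.card B ∣ p) {a : G} (ha : a ∈ A) (hb : a ∈ B) (h1 : a ≠ 1) :
    A = B :=
  (eq_zpowers_of_card_dvd_prime hp hA ha h1).trans (eq_zpowers_of_card_dvd_prime hp hB hb h1).symm

/-- The hypothesis: every element centralizes a subgroup of index at most `p` in `P`. -/
structure BrOne (p : ℕ) (P : Subgroup G) : Prop where
  prime : p.Prime
  normal : P.Normal
  pgroup : IsPGroup p P
  idx : ∀ g : G, (centralizer ({g} : Set G)).relIndex P ∣ p

namespace BrOne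

variable [Finite G] {p : ℕ} {P : Subgroup G}

theorem comm_central (h : BrOne p P) {a b : G} (ha : a ∈ P) (hb : b ∈ P) :
    ⁅a, b⁆ ∈ center G := by
  have := Fact.mk h.prime
  refine mem_center_iff.2 fun g => (mem_cent_iff.1 ?_).eq
  rcases (Nat.dvd_prime h.prime).1 (h.idx g) with h1 | h1
  · exact relIndex_eq_one.1 h1 (commutator_le_of_le le_rfl le_rfl (commutator_mem_commutator ha hb))
  · have := normal_of_index_eq_of_isPGroup h.pgroup h1
    have h2 := commutator_le_of_index_prime (M := (centralizer ({g} : Set G)).subgroupOf P)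
      (by rw [show ((centralizer ({g} : Set G)).subgroupOf P).index = p from h1]; exact h.prime)
    exact h2 (commutator_mem_commutator (mem_top (⟨a, ha⟩ : P)) (mem_top ⟨b, hb⟩))

omit [Finite G] in
theorem le_of_mem (h : BrOne p P) {g u : G} {K : Subgroup G}
    (hK : centralizer ({g} : Set G) ⊓ P ≤ K) (hu : u ∈ P) (hug : ¬ Commute g u) (huK : u ∈ K) :
    P ≤ K := by
  rcases (Nat.dvd_prime h.prime).1 (h.idx g) with h1 | h1
  · exact absurd (mem_cent_iff.1 (relIndex_eq_one.1 h1 hu)) hug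
  · rw [← inf_relIndex_right] at h1
    rcases eq_or_eq_of_relIndex_prime (L := K ⊓ P) (h1 ▸ h.prime) (le_inf hK inf_le_right)
      inf_le_right with h2 | h2
    · exact absurd (mem_cent_iff.1 (h2.le ⟨huK, hu⟩).1) hug
    · exact h2.ge.trans inf_le_left

theorem commute_of_mem (h : BrOne p P) (g : G) {u w : G} (hu : u ∈ P) (hw : w ∈ P) :
    Commute ⁅g, u⁆ w := by
  have hn := h.normal
  have hc : ⁅g, u⁆ ∈ P := by
    rw [commutatorElement_def]; exact P.mul_mem (hn.conj_mem _ hu g) (P.inv_mem hu)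
  have hH : centralizer ({g} : Set G) ⊓ P ≤ centralizer {⁅g, u⁆} := by
    rintro k ⟨hk1, hk2⟩
    have h1 : Commute g (u⁻¹ * k * u) := by
      have : u⁻¹ * k * u = ⁅u⁻¹, k⁆ * k := by rw [commutatorElement_def]; group
      rw [this]
      exact Commute.mul_right (mem_center_iff.1 (h.comm_central (P.inv_mem hu) hk2) g)
        (mem_cent_iff.1 hk1)
    have h2 := (mem_cent_iff.1 hk1).eq
    refine mem_cent_iff.2 ?_
    change g * u * g⁻¹ * u⁻¹ * k = k * (g * u * g⁻¹ * u⁻¹)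
    calc g * u * g⁻¹ * u⁻¹ * k = g * u * (g⁻¹ * (u⁻¹ * k * u)) * u⁻¹ := by group
      _ = g * k * u * g⁻¹ * u⁻¹ := by rw [h1.inv_left.eq]; group
      _ = _ := by rw [h2]; group
  by_cases hgu : Commute g u
  · rw [commutatorElement_eq_one_iff_commute.2 hgu]; exact Commute.one_left w
  by_cases hcu : Commute ⁅g, u⁆ u
  · exact mem_cent_iff.1 (h.le_of_mem hH hu hgu (mem_cent_iff.2 hcu) hw)
  by_cases hcg : Commute g ⁅g, u⁆
  swap
  · exact mem_cent_iff.1 (h.le_of_mem hH hc hcg (self_mem_cent _) hw)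
  exfalso
  have hgu' : ¬ Commute (g * u) ⁅g, u⁆ := fun h1 => hcu (by
    have := (hcg.inv_left.mul_left h1).symm
    rwa [inv_mul_cancel_left] at this)
  by_cases hK : centralizer ({g * u} : Set G) ⊓ P ≤ centralizer {g}
  · exact hgu (mem_cent_iff.1 (h.le_of_mem hK hc hgu' (mem_cent_iff.2 hcg) hu))
  obtain ⟨k, ⟨hk1, hk2⟩, hk3⟩ := SetLike.not_le_iff_exists.1 hK
  have hk4 : ⁅g, k⁆ ∈ center G := by
    have h1 := (mem_cent_iff.1 hk1).eq
    have h2 := mem_center_iff.1 (h.comm_central hu hk2)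
    have h3 : ⁅g, k⁆ = ⁅u, k⁆⁻¹ := by
      rw [eq_inv_iff_mul_eq_one, h2]
      calc ⁅u, k⁆ * ⁅g, k⁆ = ⁅u, k⁆ * g * k * g⁻¹ * k⁻¹ := by rw [commutatorElement_def g]; group
        _ = g * u * k * u⁻¹ * g⁻¹ * k⁻¹ := by rw [← h2, commutatorElement_def]; group
        _ = 1 := by rw [h1]; group
    rw [h3]
    exact inv_mem (h.comm_central hu hk2)
  let K : Subgroup G := (centralizer {(g : G ⧸ center G)}).comap (QuotientGroup.mk' (center G))
  have hKm : ∀ x, x ∈ K ↔ ⁅g, x⁆ ∈ center G := fun x => by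
    rw [mem_comap, mem_cent_iff, ← commutatorElement_eq_one_iff_commute,
      ← QuotientGroup.eq_one_iff, ← QuotientGroup.mk'_apply, ← QuotientGroup.mk'_apply,
      map_commutatorElement]
  have h5 := h.le_of_mem (K := K) (fun x hx => (hKm x).2 (by
    rw [commutatorElement_eq_one_iff_commute.2 (mem_cent_iff.1 hx.1)]; exact one_mem _)) hk2
    (fun h6 => hk3 (mem_cent_iff.2 h6)) ((hKm k).2 hk4)
  exact hcu (mem_center_iff.1 ((hKm u).1 (h5 hu)) u).symm

/-- The commutator map with `g` on `P`. -/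
def delta (h : BrOne p P) (g : G) : P →* G :=
  MonoidHom.mk' (fun u => ⁅g, (u : G)⁆) fun u w =>
    commutatorElement_mul_right_of_commute (h.commute_of_mem g w.2 u.2).symm

/-- The image `[g, P]`. -/
def L (h : BrOne p P) (g : G) : Subgroup G := (h.delta g).range

theorem mem_L (h : BrOne p P) {g x : G} : x ∈ h.L g ↔ ∃ u ∈ P, ⁅g, u⁆ = x :=
  ⟨fun ⟨u, hu⟩ => ⟨u, u.2, hu⟩, fun ⟨u, hu, hx⟩ => ⟨⟨u, hu⟩, hx⟩⟩

theorem comm_mem_L (h : BrOne p P) (g : G) {u : G} (hu : u ∈ P) : ⁅g, u⁆ ∈ h.L g :=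
  h.mem_L.2 ⟨u, hu, rfl⟩

theorem card_L (h : BrOne p P) (g : G) : Nat.card (h.L g) ∣ p := by
  have : (h.delta g).ker = (centralizer ({g} : Set G)).subgroupOf P := by
    ext u
    rw [MonoidHom.mem_ker, mem_subgroupOf, mem_cent_iff, ← commutatorElement_eq_one_iff_commute]
    rfl
  rw [L, ← index_ker, this]
  exact h.idx g

theorem comm_pow (h : BrOne p P) (g : G) {u : G} (hu : u ∈ P) : ⁅g, u⁆ ^ p = 1 :=
  orderOf_dvd_iff_pow_eq_one.1 ((Subgroup.orderOf_dvd_natCard _ (h.comm_mem_L g hu)).trans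
    (h.card_L g))

theorem conj_mem_L (h : BrOne p P) {g x : G} (hx : x ∈ h.L g) (c : G) :
    c * x * c⁻¹ ∈ h.L (c * g * c⁻¹) := by
  obtain ⟨u, hu, rfl⟩ := h.mem_L.1 hx
  exact h.mem_L.2 ⟨c * u * c⁻¹, h.normal.conj_mem _ hu c, (conjugate_commutatorElement _ _ _).symm⟩

theorem L_eq_of_not_le (h : BrOne p P) {x y : G} (hx : ¬ P ≤ centralizer {x})
    (hxy : ¬ centralizer ({x} : Set G) ⊓ P ≤ centralizer {y}) : h.L x = h.L y := by
  obtain ⟨u, ⟨hu1, hu2⟩, hu3⟩ := SetLike.not_le_iff_exists.1 hxy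
  have hyx : ¬ centralizer ({y} : Set G) ⊓ P ≤ centralizer {x} := fun h1 =>
    hx (h.le_of_mem h1 hu2 (fun h2 => hu3 (mem_cent_iff.2 h2)) hu1)
  obtain ⟨w, ⟨hw1, hw2⟩, hw3⟩ := SetLike.not_le_iff_exists.1 hyx
  have e1 : ⁅x * y, u⁆ = x * ⁅y, u⁆ * x⁻¹ := by
    rw [commutatorElement_mul_left_eq_conj_mul,
      commutatorElement_eq_one_iff_commute.2 (mem_cent_iff.1 hu1), mul_one]
  have e2 : ⁅x * y, w⁆ = ⁅x, w⁆ := by
    rw [commutatorElement_mul_left_eq_conj_mul,
      commutatorElement_eq_one_iff_commute.2 (mem_cent_iff.1 hw1), mul_one, mul_inv_cancel, one_mul]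
  have h1 : h.L (x * y) = h.L x := eq_of_card_dvd_prime h.prime (h.card_L _) (h.card_L _)
    (e2 ▸ h.comm_mem_L (x * y) hw2) (h.comm_mem_L x hw2)
    fun h2 => hw3 (mem_cent_iff.2 (commutatorElement_eq_one_iff_commute.1 h2))
  have h2 := h.conj_mem_L (h1 ▸ e1 ▸ h.comm_mem_L (x * y) hu2) x⁻¹
  simp only [inv_inv, mul_assoc, inv_mul_cancel_left, inv_mul_cancel, mul_one, one_mul] at h2
  exact eq_of_card_dvd_prime h.prime (h.card_L _) (h.card_L _) h2 (h.comm_mem_L y hu2)
    fun h2 => hu3 (mem_cent_iff.2 (commutatorElement_eq_one_iff_commute.1 h2))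

theorem L_eq_bot (h : BrOne p P) {x : G} (hx : P ≤ centralizer {x}) : h.L x = ⊥ := by
  rw [eq_bot_iff]
  intro a ha
  obtain ⟨u, hu, rfl⟩ := h.mem_L.1 ha
  exact commutatorElement_eq_one_iff_commute.2 (mem_cent_iff.1 (hx hu))

theorem dichotomy (h : BrOne p P) {x : G} (hx : ¬ P ≤ centralizer {x}) :
    (∀ g, h.L g ≤ h.L x) ∨ centralizer ({x} : Set G) ⊓ P ≤ center G := by
  by_cases h1 : ∀ g, h.L g ≤ h.L x
  · exact Or.inl h1
  right
  push Not at h1
  obtain ⟨y, hy⟩ := h1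
  have hy1 : ¬ P ≤ centralizer {y} := fun h2 => hy (by rw [h.L_eq_bot h2]; exact bot_le)
  have hxy : centralizer ({x} : Set G) ⊓ P ≤ centralizer {y} := by
    by_contra h2
    exact hy (h.L_eq_of_not_le hx h2).ge
  intro a ha
  refine mem_center_iff.2 fun g => (mem_cent_iff.1 ?_).eq
  by_contra hg
  have h2 := h.L_eq_of_not_le hx (y := g) fun h2 => hg (h2 ha)
  have h3 := h.L_eq_of_not_le hy1 (y := g) fun h2 => hg (h2 ⟨hxy ha, ha.2⟩)
  exact hy (h3.trans h2.symm).le

theorem pow_mem_centralizer (h : BrOne p P) {t : G} (ht : ∀ u ∈ P, Commute t ⁅t, u⁆) :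
    t ^ p ∈ centralizer (P : Set G) := by
  refine mem_centralizer_iff.2 fun u hu => ?_
  refine (commutatorElement_eq_one_iff_commute.1 ?_).symm.eq
  rw [commutatorElement_pow_left_of_commute (ht u hu), h.comm_pow t hu]

theorem commutator_le (h : BrOne p P) (hC : centralizer (P : Set G) ≤ P)
    (hmax : ∀ N : Subgroup G, N.Normal → IsPGroup p N → N ≤ P)
    (ht : ∀ t ∈ _root_.commutator G, ∀ u ∈ P, Commute t ⁅t, u⁆) :
    _root_.commutator G ≤ P ∧ ¬ p ∣ P.index := by
  have := Fact.mk h.prime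
  have h1 : _root_.commutator G ≤ P := by
    refine hmax _ inferInstance (isPGroup_subgroup_iff.2 fun t htG => ?_)
    obtain ⟨k, hk⟩ := isPGroup_subgroup_iff.1 h.pgroup _ (hC (h.pow_mem_centralizer (ht t htG)))
    exact ⟨k + 1, by rw [pow_succ', pow_mul, hk]⟩
  refine ⟨h1, ?_⟩
  obtain ⟨S, hS⟩ := h.pgroup.exists_le_sylow
  have h2 := hmax S (Normal.of_commutator_le G (h1.trans hS)) S.isPGroup'
  exact fun hd => S.not_dvd_index (hd.trans (index_dvd_of_le h2))

theorem caseA (h : BrOne p P) (hC : centralizer (P : Set G) ≤ P)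
    (hmax : ∀ N : Subgroup G, N.Normal → IsPGroup p N → N ≤ P) {x : G}
    (hL : ∀ g, h.L g ≤ h.L x) : _root_.commutator G ≤ h.L x := by
  have := Fact.mk h.prime
  have := h.normal
  have hn : (h.L x).Normal := ⟨fun a ha g => hL _ (h.conj_mem_L ha g)⟩
  have hcyc : IsCyclic (h.L x) := isCyclic_of_card_dvd_prime (h.card_L x)
  have h1 := CfsgLib.SolvStruct.commutator_le_centralizer_of_cyclic (h.L x)
  obtain ⟨h2, h3⟩ := h.commutator_le hC hmax fun t ht u hu =>
    (mem_centralizer_iff.1 (h1 ht) _ (hL t (h.comm_mem_L t hu))).symm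
  rw [_root_.commutator_def, Subgroup.commutator_le]
  intro a _ b _
  have hab : ⁅a, b⁆ ∈ P := h2 (commutator_mem_commutator (mem_top a) (mem_top b))
  have hcen : ∀ g : G, ∀ u ∈ P, Commute (g : G ⧸ h.L x) (u : G ⧸ h.L x) := fun g u hu => by
    rw [← commutatorElement_eq_one_iff_commute, ← QuotientGroup.mk'_apply,
      ← QuotientGroup.mk'_apply, ← map_commutatorElement, QuotientGroup.mk'_apply,
      QuotientGroup.eq_one_iff]
    exact hL g (h.comm_mem_L g hu)
  obtain ⟨k, hk⟩ := isPGroup_subgroup_iff.1 h.pgroup _ hab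
  refine CfsgLib.SolvStruct.mem_of_pow_mem_of_coprime (a := p ^ k) (b := P.index)
    (by rw [hk]; exact one_mem _) ?_
    (Nat.Coprime.pow_left k ((Nat.Prime.coprime_iff_not_dvd h.prime).2 h3))
  have e : ((⁅a, b⁆ : G) : G ⧸ h.L x) = ⁅(a : G ⧸ h.L x), (b : G ⧸ h.L x)⁆ :=
    map_commutatorElement (QuotientGroup.mk' (h.L x)) a b
  rw [← QuotientGroup.eq_one_iff, QuotientGroup.mk_pow, e,
    ← commutatorElement_pow_left_of_commute (e ▸ hcen a _ hab),
    commutatorElement_eq_one_iff_commute, ← QuotientGroup.mk_pow]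
  exact (hcen b _ (P.pow_index_mem a)).symm

theorem caseB (h : BrOne p P) (hC : centralizer (P : Set G) ≤ P)
    (hmax : ∀ N : Subgroup G, N.Normal → IsPGroup p N → N ≤ P) {x : G}
    (hx : ¬ P ≤ centralizer {x}) (hH : centralizer ({x} : Set G) ⊓ P ≤ center G) (g : G) :
    h.L g ≤ h.L x := by
  have := Fact.mk h.prime
  have hPn := h.normal
  set H := centralizer ({x} : Set G) ⊓ P with hHdef
  have hn : H.Normal := ⟨fun a ha g => by
    rwa [mem_center_iff.1 (hH ha) g, mul_inv_cancel_right]⟩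
  have hcard : Nat.card (P.map (QuotientGroup.mk' H)) ∣ p := by
    rw [← relIndex_ker, QuotientGroup.ker_mk', hHdef, inf_relIndex_right]
    exact h.idx x
  have hcyc : IsCyclic (P.map (QuotientGroup.mk' H)) := isCyclic_of_card_dvd_prime hcard
  have hPn' := hPn.map (QuotientGroup.mk' H) (QuotientGroup.mk'_surjective H)
  have h1 := CfsgLib.SolvStruct.commutator_le_centralizer_of_cyclic (P.map (QuotientGroup.mk' H))
  have h2 : ⁅_root_.commutator G, P⁆ ≤ H := by
    rw [commutator_le_iff_map_mk']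
    refine le_trans ?_ h1
    rw [_root_.commutator_def, map_commutator]
    exact commutator_mono le_top le_top
  obtain ⟨h3, h4⟩ := h.commutator_le hC hmax fun t ht u hu =>
    mem_center_iff.1 (hH (h2 (commutator_mem_commutator ht hu))) t
  have hab : ∀ a ∈ P, ∀ b ∈ P, Commute a b := by
    intro a ha b hb
    by_cases hxa : Commute x a
    · exact (mem_center_iff.1 (hH ⟨mem_cent_iff.2 hxa, ha⟩) b).symm
    · exact mem_cent_iff.1 (h.le_of_mem (hH.trans (center_le_cent a)) ha hxa (self_mem_cent a) hb)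
  obtain ⟨u, hu, hux⟩ := SetLike.not_le_iff_exists.1 hx
  have hux' : ¬ Commute x u := fun h5 => hux (mem_cent_iff.2 h5)
  have hc : ⁅x, u⁆ ∈ P := by
    rw [commutatorElement_def]; exact P.mul_mem (hPn.conj_mem _ hu x) (P.inv_mem hu)
  have hcx : ¬ Commute x ⁅x, u⁆ := by
    intro h5
    have h6 : P ≤ centralizer {x ^ p} := h.le_of_mem (hH.trans (center_le_cent _)) hu hux'
      (mem_cent_iff.2 (commutatorElement_eq_one_iff_commute.1 (by
        rw [commutatorElement_pow_left_of_commute h5, h.comm_pow x hu])))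
    have h7 : x ∈ P := CfsgLib.SolvStruct.mem_of_pow_mem_of_coprime
      (hC (mem_centralizer_iff.2 fun y hy => (mem_cent_iff.1 (h6 hy)).symm.eq))
      (P.pow_index_mem x) ((Nat.Prime.coprime_iff_not_dvd h.prime).2 h4)
    exact hux' (hab x h7 u hu)
  have h5 : P ≤ ((h.L x).comap (h.delta g)).map P.subtype := by
    refine h.le_of_mem (fun a ha => ⟨⟨a, ha.2⟩, ?_, rfl⟩) hc hcx ⟨⟨_, hc⟩, ?_, rfl⟩
    · change ⁅g, a⁆ ∈ h.L x
      rw [commutatorElement_eq_one_iff_commute.2 (mem_center_iff.1 (hH ha) g)]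
      exact one_mem _
    · change ⁅g, ⁅x, u⁆⁆ ∈ h.L x
      rw [commutatorElement_def g]
      refine mul_mem ?_ (inv_mem (h.comm_mem_L x hu))
      have ha : ⁅g, x⁆ ∈ P := h3 (commutator_mem_commutator (mem_top g) (mem_top x))
      have hv := hPn.conj_mem _ hu g
      have hxv : ⁅x, g * u * g⁻¹⁆ ∈ P := by
        rw [commutatorElement_def]; exact P.mul_mem (hPn.conj_mem _ hv x) (P.inv_mem hv)
      have e : g * x * g⁻¹ = ⁅g, x⁆ * x := by rw [commutatorElement_def]; group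
      rw [conjugate_commutatorElement, e, commutatorElement_mul_left_of_commute (hab _ ha _ hxv),
        commutatorElement_eq_one_iff_commute.2 (hab _ ha _ hv), mul_one]
      exact h.comm_mem_L x hv
  intro a ha
  obtain ⟨w, hw, rfl⟩ := h.mem_L.1 ha
  obtain ⟨w', hw', rfl⟩ := h5 hw
  exact hw'

/-- The derived subgroup has order at most `p`. -/
theorem card_commutator_dvd (h : BrOne p P) (hC : centralizer (P : Set G) ≤ P)
    (hmax : ∀ N : Subgroup G, N.Normal → IsPGroup p N → N ≤ P) :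
    Nat.card (_root_.commutator G) ∣ p := by
  obtain ⟨x, hx⟩ : ∃ x, ∀ g, h.L g ≤ h.L x := by
    by_cases h1 : ∀ x : G, P ≤ centralizer {x}
    · exact ⟨1, fun g => by rw [h.L_eq_bot (h1 g)]; exact bot_le⟩
    · push Not at h1
      obtain ⟨x, hx⟩ := h1
      exact ⟨x, (h.dichotomy hx).elim id (h.caseB hC hmax hx)⟩
  exact (card_dvd_of_le (h.caseA hC hmax hx)).trans (h.card_L x)

end BrOne

end CfsgLib.ClassSz
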