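/-
Groups whose class sizes are square-free (Chillag and Herzog; Cossey and Wang).
-/
import Mathlib
import Cfsg.Agent.Lib.ClassSz.Four
import Cfsg.Agent.Lib.ClassSz.BreadthOne
import Cfsg.Agent.Lib.Core.Fitting
import Cfsg.Agent.Lib.SolvStruct.Supersolvable

set_option autoImplicit false

namespace CfsgLib.ClassSz

open Subgroup CfsgLib.Fgs CfsgLib.Core Cfsg
open scoped commutatorElement

universe u

variable {G : Type u} [Group G]

theorem map_mk'_commutator (N : Subgroup G) [N.Normal] :
    (_root_.commutator G).map (QuotientGroup.mk' N) = _root_.commutator (G ⧸ N) := by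
  rw [_root_.commutator_def, map_commutator, map_top_of_surjective _ (QuotientGroup.mk'_surjective N),
    _root_.commutator_def]

theorem dvd_prime_of_squarefree_of_isPGroup [Finite G] {p : ℕ} (hp : p.Prime) {P H : Subgroup G}
    (hP : IsPGroup p P) (h : Squarefree (H.relIndex P)) : H.relIndex P ∣ p := by
  have := Fact.mk hp
  obtain ⟨k, hk⟩ := hP.index (H.subgroupOf P)
  change H.relIndex P = _ at hk
  rw [hk] at h ⊢
  rcases k with _ | _ | k
  · simp
  · simp
  · exact absurd ⟨p ^ k, by ring⟩ (Nat.squarefree_iff_prime_squarefree.1 h p hp)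

theorem sqfree_commutator_aux (n : ℕ) : ∀ (G : Type u) [Group G] [Finite G] [Group.IsSolvable G],
    Nat.card G = n → (∀ x : G, Squarefree (centralizer ({x} : Set G)).index) →
    Squarefree (Nat.card (_root_.commutator G)) := by
  induction n using Nat.strong_induction_on with
  | _ n ih =>
  intro G _ _ _ hn h
  rcases subsingleton_or_nontrivial G with hs | hs
  · rw [Subsingleton.elim (_root_.commutator G) ⊥, card_bot]; exact squarefree_one
  obtain ⟨p, hp, hP⟩ := exists_pCore_ne_bot (G := G)
  have := Fact.mk hp
  have := pCore_normal p G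
  have := pPrimeCore_normal p G
  by_cases hO : pPrimeCore p G = ⊥
  · have hb : BrOne p (pCore p G) := ⟨hp, inferInstance, isPGroup_pCore p G, fun g =>
      dvd_prime_of_squarefree_of_isPGroup hp (isPGroup_pCore p G)
        ((h g).squarefree_of_dvd (relIndex_dvd_index_of_normal_right _ _))⟩
    exact hp.prime.squarefree.squarefree_of_dvd (hb.card_commutator_dvd
      (centralizer_pCore_le_of_isSolvable hp hO) fun N _ hN => le_pCore hN)
  have key : ∀ (N : Subgroup G) [N.Normal], N ≠ ⊥ → ∀ r : ℕ, r.Prime → (Nat.card N).Coprime r →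
      ¬ r * r ∣ Nat.card (_root_.commutator G) := by
    intro N _ hN r hr hc hd
    have h1 := ih _ (hn ▸ card_quotient_lt_of_ne_bot hN) (G ⧸ N) rfl fun x => by
      induction x using QuotientGroup.induction_on with
      | H x => exact (h x).squarefree_of_dvd (index_cent_quotient_dvd N x)
    rw [← card_map_mk'_mul_card_inf (_root_.commutator G) N, map_mk'_commutator] at hd
    have h2 : (r * r).Coprime (Nat.card (_root_.commutator G ⊓ N : Subgroup G)) :=
      Nat.Coprime.coprime_dvd_right (card_dvd_of_le inf_le_right) (Nat.Coprime.mul_left hc.symm hc.symm)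
    exact Nat.squarefree_iff_prime_squarefree.1 h1 r hr (h2.dvd_of_dvd_mul_right hd)
  refine Nat.squarefree_iff_prime_squarefree.2 fun r hr => ?_
  by_cases hrp : r = p
  · exact key _ hO r hr (hrp ▸ coprime_card_pPrimeCore p G)
  · exact key _ hP r hr (isPGroup_coprime_card (isPGroup_pCore p G)
      ((Nat.coprime_primes hr hp).2 hrp))

theorem isCyclic_commutator_of_squarefree [Finite G]
    (h : Squarefree (Nat.card (_root_.commutator G))) : IsCyclic (_root_.commutator G) := by
  have := IsZGroup.of_squarefree h
  have h1 : IsCyclic (⁅_root_.commutator G, _root_.commutator G⁆ : Subgroup G) := by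
    rw [← map_subtype_commutator]
    have := IsZGroup.isCyclic_commutator (G := _root_.commutator G)
    exact isCyclic_of_surjective _ (MonoidHom.subgroupMap_surjective _ _)
  have h2 := CfsgLib.SolvStruct.commutator_le_centralizer_of_cyclic
    (⁅_root_.commutator G, _root_.commutator G⁆ : Subgroup G)
  have : Group.IsNilpotent (_root_.commutator G) :=
    isNilpotent_of_commutator_commutator_eq_bot (by
      rw [commutator_comm, commutator_eq_bot_iff_le_centralizer]; exact h2)
  infer_instance

theorem le_centralizer_of_squarefree_cyclic [Finite G] {N F : Subgroup G} [N.Normal] [IsCyclic N]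
    (hN : Squarefree (Nat.card N)) [Group.IsNilpotent F] (hNF : N ≤ F) :
    N ≤ centralizer (F : Set G) := by
  rw [← relIndex_eq_one]
  by_contra h1
  obtain ⟨r, hr, hd⟩ := Nat.exists_prime_and_dvd h1
  have := Fact.mk hr
  have h2 := card_inf_mul_relIndex (centralizer (F : Set G)) N
  obtain ⟨a, ha⟩ := exists_prime_orderOf_dvd_card' (G := N) r (hd.trans (Dvd.intro_left _ h2))
  have ha' : orderOf (a : G) = r := by rw [Subgroup.orderOf_coe, ha]
  have hle : zpowers (a : G) ≤ N := zpowers_le.2 a.2
  have hn := CfsgLib.SolvStruct.normal_of_le_cyclic_normal hle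
  have h3 := inf_centralizer_ne_bot_of_isNilpotent (hle.trans hNF) le_normalizer_of_normal
    (by rw [Ne, zpowers_eq_bot]; intro h4; rw [h4, orderOf_one] at ha'; exact hr.one_lt.ne ha')
  obtain ⟨⟨b, hb⟩, hb1⟩ := ne_bot_iff_exists_ne_one.1 h3
  have h4 := eq_zpowers_of_card_dvd_prime hr (A := zpowers (a : G))
    (by rw [Nat.card_zpowers, ha']) hb.1 (fun h5 => hb1 (Subtype.ext h5))
  have h5 : zpowers (a : G) ≤ centralizer (F : Set G) ⊓ N :=
    le_inf (h4 ▸ zpowers_le.2 hb.2) hle
  have h6 := card_dvd_of_le h5
  rw [Nat.card_zpowers, ha'] at h6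
  exact Nat.squarefree_iff_prime_squarefree.1 hN r hr (h2 ▸ mul_dvd_mul h6 hd)

theorem squarefree_structure [Finite G]
    (h : ∀ x : G, Squarefree (centralizer ({x} : Set G)).index) :
    IsSupersolvable G ∧ (fittingSubgroup G).Normal ∧
    (∀ _h : (fittingSubgroup G).Normal, IsCyclic (G ⧸ fittingSubgroup G) ∧
      Squarefree (fittingSubgroup G).index) ∧
    IsCyclic (_root_.commutator G) ∧ Squarefree (Nat.card (_root_.commutator G)) ∧
    Subgroup.upperCentralSeries ↥(fittingSubgroup G) 2 = ⊤ ∧
    _root_.commutator ↥(_root_.commutator G) = ⊥ := by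
  have hsol : Group.IsSolvable G := solvable_of_not_four_dvd fun x hx =>
    Nat.squarefree_iff_prime_squarefree.1 (h x) 2 Nat.prime_two hx
  have h1 := sqfree_commutator_aux _ G rfl h
  have h2 := isCyclic_commutator_of_squarefree h1
  have hF := isNilpotent_fittingSubgroup G
  have h3 : _root_.commutator G ≤ fittingSubgroup G := le_fittingSubgroup
    (isNilpotent_subgroup_of_isMulCommutative _)
  have h4 := le_centralizer_of_squarefree_cyclic h1 h3
  have h5 : fittingSubgroup G = centralizer (_root_.commutator G : Set G) := by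
    refine le_antisymm (le_centralizer_iff.1 h4) (le_fittingSubgroup ?_)
    refine isNilpotent_of_commutator_commutator_eq_bot ?_
    rw [commutator_eq_bot_iff_le_centralizer]
    exact (commutator_mono le_top le_top).trans (le_centralizer_iff.1 le_rfl)
  have h6 : Squarefree (fittingSubgroup G).index := by
    obtain ⟨g, hg⟩ := (Subgroup.isCyclic_iff_exists_zpowers_eq_top _).1 h2
    rw [h5, ← hg, centralizer_zpowers]
    exact h g
  refine ⟨?_, fittingSubgroup_normal G, fun hn => ⟨?_, h6⟩, h2, h1, ?_, ?_⟩
  · refine CfsgLib.SolvStruct.ss_of_quotient_cyclic (_root_.commutator G) ?_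
    have : Group.IsNilpotent (G ⧸ _root_.commutator G) :=
      inferInstanceAs (Group.IsNilpotent (Abelianization G))
    exact CfsgLib.SolvStruct.ss_of_nilpotent _
  · have := IsZGroup.of_squarefree (G := G ⧸ fittingSubgroup G) h6
    have : Group.IsNilpotent (G ⧸ fittingSubgroup G) := isNilpotent_of_commutator_le_center (by
      rw [← map_mk'_commutator, (Subgroup.map_eq_bot_iff _).2 (by rwa [QuotientGroup.ker_mk'])]
      exact bot_le)
    infer_instance
  · rw [Subgroup.upperCentralSeries_eq_top_iff_nilpotencyClass_le, nilpotencyClass_le_two_iff]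
    intro x hx
    have hx0 : (x : G) ∈ ⁅fittingSubgroup G, fittingSubgroup G⁆ := by
      rw [← map_subtype_commutator]; exact ⟨x, hx, rfl⟩
    have hx' : (x : G) ∈ _root_.commutator G := commutator_mono le_top le_top hx0
    exact mem_center_iff.2 fun y => Subtype.ext (mem_centralizer_iff.1 (h4 hx') y y.2)
  · rw [_root_.commutator_def (_root_.commutator G), commutator_eq_bot_iff_le_centralizer]
    intro x _ y _
    exact (IsCyclic.isMulCommutative (α := _root_.commutator G)).is_comm.comm y x

end CfsgLib.ClassSz
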