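import Mathlib
import Cfsg.Agent.Lib.MaxCent.Main
import Cfsg.Agent.Lib.ClassSz.TwoSizes
import Cfsg.Agent.Lib.Fgs.OrbitSum
import Cfsg.Agent.Lib.U62K.Gen
import Cfsg.Agent.Lib.PLocal.FFApply

/-! Groups whose two largest class sizes are coprime: first part. -/

set_option autoImplicit false

namespace CfsgLib.ClassSz.TopTwo

open Subgroup Cfsg CfsgLib.MaxCent CfsgLib.Fgs
open scoped commutatorElement

variable {G : Type*} [Group G] [Finite G] {m n : ℕ}

/-- order prime to `m` -/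
def Co (m : ℕ) (g : G) : Prop := (orderOf g).Coprime m

/-- order dividing a power of `m` -/
def Mu (m : ℕ) (g : G) : Prop := ∃ k, orderOf g ∣ m ^ k

theorem exists_split (m N : ℕ) (hN : N ≠ 0) : ∃ k b, b.Coprime m ∧ N ∣ m ^ k * b := by
  induction N using Nat.strong_induction_on with
  | _ N ih =>
  by_cases h : N.Coprime m
  · exact ⟨0, N, h, by simp⟩
  obtain ⟨N', hN'⟩ := Nat.gcd_dvd_left N m
  have h0 : N' ≠ 0 := fun e => hN (by rw [hN', e, mul_zero])
  have h1 : 1 < N.gcd m := by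
    have : 0 < N.gcd m := Nat.gcd_pos_of_pos_left m (Nat.pos_of_ne_zero hN)
    have : N.gcd m ≠ 1 := h
    omega
  obtain ⟨k, b, hb, hd⟩ := ih N' (by nlinarith [Nat.pos_of_ne_zero h0]) h0
  refine ⟨k + 1, b, hb, ?_⟩
  rw [hN', pow_succ', mul_assoc]
  exact Nat.mul_dvd_mul (Nat.gcd_dvd_right N m) hd

theorem parts (m : ℕ) (g : G) : ∃ u v : G, u ∈ zpowers g ∧ v ∈ zpowers g ∧ u * v = g ∧
    Commute u v ∧ Mu m u ∧ Co m v := by
  obtain ⟨k, b, hb, hd⟩ := exists_split m (orderOf g) (orderOf_pos g).ne'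
  obtain ⟨u, v, h1, h2, h3, h4, h5, h6⟩ := exists_coprime_parts (hb.symm.pow_left k) hd
  exact ⟨u, v, h1, h2, h3, h4, ⟨k, h5⟩, hb.coprime_dvd_left h6⟩

omit [Finite G] in
theorem Mu.coprime {u v : G} (hu : Mu m u) (hv : Co m v) : (orderOf u).Coprime (orderOf v) := by
  obtain ⟨k, hk⟩ := hu
  exact ((Nat.Coprime.symm hv).pow_left k).coprime_dvd_left hk

omit [Finite G] in
theorem Co.of_mem {u v : G} (hv : Co m v) (h : u ∈ zpowers v) : Co m u :=
  Nat.Coprime.coprime_dvd_left (orderOf_dvd_of_mem_zpowers h) hv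

omit [Finite G] in
theorem Co.mul {u v : G} (hu : Co m u) (hv : Co m v) (h : Commute u v) : Co m (u * v) :=
  Nat.Coprime.coprime_dvd_left h.orderOf_mul_dvd_mul_orderOf (Nat.Coprime.mul_left hu hv)

omit [Finite G] in
theorem Co.conj {u : G} (hu : Co m u) (g : G) : Co m (g * u * g⁻¹) := by
  rwa [Co, ← MulAut.conj_apply, MulEquiv.orderOf_eq]

theorem eq_of_le_of_index_le {H K : Subgroup G} (h : H ≤ K) (hi : H.index ≤ K.index) : H = K := by
  refine eq_of_le_of_card_ge h (Nat.le_of_mul_le_mul_right ?_ (Nat.pos_of_ne_zero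
    (index_ne_zero_of_finite (H := K))))
  rw [K.card_mul_index, ← H.card_mul_index]
  exact Nat.mul_le_mul_left _ hi

omit [Finite G] in
theorem centralizer_zp (x : G) : centralizer (zpowers x : Set G) = C x := by
  rw [zpowers_eq_closure, centralizer_closure]

omit [Finite G] in
theorem C_mul_center {z : G} (hz : z ∈ center G) (a : G) : C (a * z) = C a := by
  ext k
  rw [mem_C, mem_C, ← mul_assoc, mul_assoc a, ← mem_center_iff.1 hz k, ← mul_assoc, mul_left_inj]

variable (G m) in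
/-- the common left stabiliser of the classes of size `m` -/
def L : Subgroup G where
  carrier := {k | ∀ z, (C z).index = m → IsConj z (k * z)}
  one_mem' := fun z _ => by rw [one_mul]
  mul_mem' := fun {a b} ha hb z hz => by
    rw [mul_assoc]
    exact (hb z hz).trans (ha _ (index_cent_of_isConj (hb z hz) ▸ hz))
  inv_mem' := fun {a} ha z hz => by
    have : ∀ k, IsConj z (a ^ k * z) := fun k => by
      induction k with
      | zero => rw [pow_zero, one_mul]
      | succ k ih =>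
        rw [pow_succ', mul_assoc]
        exact ih.trans (ha _ (index_cent_of_isConj ih ▸ hz))
    have e : a⁻¹ = a ^ (orderOf a - 1) := by
      rw [inv_eq_iff_mul_eq_one, ← pow_succ', Nat.sub_add_cancel (orderOf_pos a),
        pow_orderOf_eq_one]
    exact e ▸ this _

instance : (L G m).Normal := ⟨fun k hk g z hz => by
  have h1 := hk (g⁻¹ * z * g⁻¹⁻¹) (by rw [index_cent_conj]; exact hz)
  exact ((isConj_iff.2 ⟨g⁻¹, rfl⟩).trans h1).trans (isConj_iff.2 ⟨g, by group⟩)⟩

theorem card_L_dvd {y : G} (hy : (C y).index = m) : Nat.card (L G m) ∣ m := by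
  have e : {z | IsConj y z} = QuotientGroup.mk ⁻¹' ((QuotientGroup.mk : G → G ⧸ L G m) ''
      {z | IsConj y z}) := by
    refine Set.Subset.antisymm (Set.subset_preimage_image _ _) ?_
    rintro z ⟨w, hw, e⟩
    have h1 := Normal.conj_mem inferInstance _ (QuotientGroup.eq.1 e) w
    have h2 := h1 w (index_cent_of_isConj hw ▸ hy)
    exact IsConj.trans hw (by simpa using h2)
  have := QuotientGroup.card_preimage_mk (L G m) ((QuotientGroup.mk : G → G ⧸ L G m) ''
      {z | IsConj y z})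
  rw [← e, Nat.card_coe_set_eq, ncard_isConj_eq_index, hy] at this
  exact ⟨_, this⟩

theorem isConj_mul {u z : G} (h : (C u).index.Coprime (C z).index) (g k : G) :
    IsConj (u * z) (g * u * g⁻¹ * (k * z * k⁻¹)) := by
  obtain ⟨a, ha, b, hb, e⟩ := exists_mul_of_coprime_index h.symm (g⁻¹ * k)
  refine isConj_iff.2 ⟨g * a, ?_⟩
  have hk : k = g * (a * b) := by rw [← e]; group
  calc g * a * (u * z) * (g * a)⁻¹ = g * (a * u) * z * (g * a)⁻¹ := by group
    _ = g * u * g⁻¹ * (g * a * (z * b) * b⁻¹ * (g * a)⁻¹) := by rw [mem_C.1 ha]; group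
    _ = _ := by rw [← mem_C.1 hb, hk]; group

theorem comm_mem_L (htop : ∀ z : G, (C z).index ≤ m) {u : G} (hu : (C u).index.Coprime m)
    (g : G) : g * u * g⁻¹ * u⁻¹ ∈ L G m := by
  intro z hz
  have hu' : (C u⁻¹).index.Coprime (C z).index := by rw [hz, C, cent_inv]; exact hu
  have h1 : (C (u⁻¹ * z)).index = m := by
    refine le_antisymm (htop _) ?_
    rw [← hz, ← ncard_isConj_eq_index, ← ncard_isConj_eq_index]
    refine Set.ncard_le_ncard_of_injOn (fun w => u⁻¹ * w) (fun w hw => ?_)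
      (fun a _ b _ e => mul_left_cancel e)
    obtain ⟨k, rfl⟩ := isConj_iff.1 hw
    simpa using isConj_mul hu' 1 k
  simpa [mul_assoc] using isConj_mul (u := u) (z := u⁻¹ * z) (h1 ▸ hu) g 1

theorem L_le_C {y : G} (hy : (C y).index = m) {u : G} (hu : (C u).index.Coprime m) :
    L G m ≤ C u := by
  rw [← relIndex_eq_one]
  exact Nat.eq_one_of_dvd_coprimes hu (relIndex_dvd_index_of_normal_right _ _)
    ((relIndex_dvd_card _ _).trans (card_L_dvd hy))

theorem central_of_co (htop : ∀ z : G, (C z).index ≤ m) {y : G} (hy : (C y).index = m) {e : G}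
    (he : Co m e) (hu : (C e).index.Coprime m) : e ∈ center G := by
  refine mem_center_iff.2 fun g => ?_
  have h1 := comm_mem_L htop hu g
  have h2 : Commute (g * e * g⁻¹ * e⁻¹) e := mem_C.1 (L_le_C hy hu h1)
  have h3 : (g * e * g⁻¹ * e⁻¹) ^ orderOf e = 1 := by
    have := h2.mul_pow (orderOf e)
    rwa [inv_mul_cancel_right, conj_pow, pow_orderOf_eq_one, mul_one, mul_inv_cancel, mul_one,
      eq_comm] at this
  have h4 : (g * e * g⁻¹ * e⁻¹) ^ m = 1 := orderOf_dvd_iff_pow_eq_one.1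
    (((L G m).orderOf_dvd_natCard h1).trans (card_L_dvd hy))
  have h5 := pow_gcd_eq_one.2 ⟨h3, h4⟩
  rwa [Nat.Coprime.gcd_eq_one he, pow_one, mul_inv_eq_one, mul_inv_eq_iff_eq_mul] at h5

/-- the standing hypotheses -/
structure Hyp (m n : ℕ) (x y : G) : Prop where
  lt : n < m
  one : 1 < n
  cop : m.Coprime n
  dich : ∀ z : G, (C z).index ≤ n ∨ (C z).index = m
  hx : (C x).index = n
  hy : (C y).index = m
  mu : Mu m x

/-- the subgroup `[G, x]` -/
def K (x : G) : Subgroup G := closure (Set.range fun g => g * x * g⁻¹ * x⁻¹)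

omit [Finite G] in
theorem mem_K (x g : G) : g * x * g⁻¹ * x⁻¹ ∈ K x := subset_closure ⟨g, rfl⟩

instance (x : G) : (K x).Normal := ⟨fun k hk h => by
  have : (K x).map (MulAut.conj h).toMonoidHom ≤ K x := by
    rw [map_le_iff_le_comap]
    refine (closure_le _).2 ?_
    rintro _ ⟨g, rfl⟩
    have := mul_mem (mem_K x (h * g)) (inv_mem (mem_K x h))
    change h * (g * x * g⁻¹ * x⁻¹) * h⁻¹ ∈ K x
    convert this using 1; group
  exact this (mem_map_of_mem _ hk)⟩

namespace Hyp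

variable {x y : G} (h : Hyp m n x y)
include h

omit [Finite G] in
theorem top (z : G) : (C z).index ≤ m := (h.dich z).elim (fun e => e.trans h.lt.le) le_of_eq

omit [Finite G] in
theorem cx : (C x).index.Coprime m := h.hx ▸ h.cop.symm

omit [Finite G] in
theorem xZ : x ∉ center G := fun e => by
  have := h.one
  rw [← h.hx, index_cent_eq_one_iff.2 e] at this
  omega

omit [Finite G] in
theorem not_dvd : ¬ n ∣ m := fun e => h.one.ne' (Nat.eq_one_of_dvd_coprimes h.cop e dvd_rfl)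

theorem eq_of_le {H : Subgroup G} {a z : G} (hz : (C z).index = m) (e : C a = H)
    (hle : H ≤ C z) : H = C z := eq_of_le_of_index_le hle (by rw [hz, ← e]; exact h.top a)

theorem central {e : G} (he : Co m e) (hA : e ∈ C x) : e ∈ center G := by
  have e1 : C (x * e) = C x ⊓ C e := cent_mul_of_coprime (mem_C.1 hA).symm (h.mu.coprime he)
  have e2 : n ∣ (C (x * e)).index := h.hx ▸ index_dvd_of_le (e1.le.trans inf_le_left)
  have e3 := (h.dich (x * e)).resolve_right fun e' => h.not_dvd (e' ▸ e2)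
  have e4 := eq_of_le_of_index_le (H := C (x * e)) (K := C x) (e1.le.trans inf_le_left)
    (h.hx ▸ e3)
  exact central_of_co h.top h.hy he (h.cx.coprime_dvd_left
    (index_dvd_of_le (e4.ge.trans (e1.le.trans inf_le_right))))

theorem K_le_L : K x ≤ L G m := (closure_le _).2 (by
  rintro _ ⟨g, rfl⟩; exact comm_mem_L h.top h.cx g)

theorem K_le_C : K x ≤ C x := h.K_le_L.trans (L_le_C h.hy h.cx)

omit [Finite G] in
theorem K_ne_bot : K x ≠ ⊥ := fun e => h.xZ (mem_center_iff.2 fun g => by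
  have := mem_bot.1 (e ▸ mem_K x g)
  rwa [mul_inv_eq_one, mul_inv_eq_iff_eq_mul] at this)

theorem card_K : Nat.card (K x) ∣ m := (card_dvd_of_le h.K_le_L).trans (card_L_dvd h.hy)

theorem M_comm : IsMulCommutative ↥(K x ⊔ zpowers x) := by
  have h1 : K x ≤ centralizer (zpowers x : Set G) := by
    rw [centralizer_zp]; exact h.K_le_C
  have h2 : K x ≤ centralizer (K x : Set G) := (closure_le _).2 (by
    rintro _ ⟨g, rfl⟩
    refine mul_mem ?_ (inv_mem (zpowers_le.1 (le_centralizer_iff.1 h1)))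
    intro k hk
    have := conj_mem_C g (h.K_le_C (Normal.conj_mem inferInstance k hk g⁻¹))
    simpa [mul_assoc, mem_C] using this)
  refine commutator_self_eq_bot_iff.1 (commutator_eq_bot_iff_le_centralizer.2 (sup_le ?_ ?_))
  · exact le_centralizer_iff.1 (sup_le h2 (le_centralizer_iff.1 h1))
  · exact le_centralizer_iff.1 (sup_le h1 (le_centralizer (zpowers x)))

omit h [Finite G] in
instance : (K x ⊔ zpowers x).Normal := ⟨fun k hk g => by
  obtain ⟨a, ha, _, ⟨i, rfl⟩, rfl⟩ := mem_sup_of_normal_left.1 hk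
  rw [← conj_mul, ← conj_zpow]
  refine mul_mem (mem_sup_left (Normal.conj_mem inferInstance a ha g)) (zpow_mem ?_ i)
  simpa using mul_mem (mem_sup_left (mem_K x g)) (mem_sup_right (mem_zpowers x))⟩

/-- the key step -/
theorem key {r : G} (hr : Co m r) (hrZ : r ∉ center G) :
    (C r).index = m ∧ K x ⊓ C r = ⊥ := by
  have hM := h.M_comm
  set M := K x ⊔ zpowers x
  have hxM : x ∈ M := mem_sup_right (mem_zpowers x)
  have hcm : ∀ {a b}, a ∈ M → b ∈ M → a * b = b * a := fun ha hb =>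
    congrArg Subtype.val (hM.1.1 ⟨_, ha⟩ ⟨_, hb⟩)
  have hcop : (Nat.card (zpowers r)).Coprime (Nat.card M) := by
    refine Nat.Coprime.coprime_dvd_right (sup_comm (zpowers x) (K x) ▸
      PLocal.PSolv.card_sup_dvd (zpowers x) (K x)) ?_
    rw [Nat.card_zpowers, Nat.card_zpowers]
    exact (h.mu.coprime hr).symm.mul_right (Nat.Coprime.coprime_dvd_right h.card_K hr)
  obtain ⟨d1, d2⟩ := Coprime.fitting_decomposition (V := M) (A := zpowers r)
    le_normalizer_of_normal hcop
  rw [centralizer_zp] at d1 d2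
  have hle : ⁅M, zpowers r⁆ ≤ M := commutator_le_left _ _
  have hn : C r ≤ normalizer ((⁅M, zpowers r⁆ : Subgroup G) : Set G) := fun c hc =>
    PLocal.FF.mem_normalizer_commutator (le_normalizer_of_normal (mem_top c))
      (PLocal.le_normalizer_of_le_centralizer (centralizer_zp r).ge hc)
  generalize ⁅M, zpowers r⁆ = M₁ at *
  obtain ⟨x₀, h0, x₁, h1, e⟩ := (PLocal.mem_sup_of_le_normalizer (A := M ⊓ C r) (B := M₁)
    (inf_le_right.trans hn)).1 (d2 ▸ hxM)
  have hx1 : x₁ ≠ 1 := by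
    rintro rfl
    rw [mul_one] at e
    exact hrZ (h.central hr (mem_C_comm (e ▸ h0.2)))
  have c0 : C (r * x₀) = C r ⊓ C x₀ := cent_mul_of_coprime (mem_C.1 h0.2).symm
    (Nat.card_zpowers r ▸ hcop.coprime_dvd_right (M.orderOf_dvd_natCard h0.1))
  have i1 : (C x₁).relIndex (C (r * x₀)) < Nat.card M₁ := by
    rw [relIndex_cent_eq_ncard]
    refine ncard_lt_card_of_subset ?_ ?_
    · rintro _ ⟨c, hc, rfl⟩
      exact (mem_normalizer_iff.1 (hn (c0 ▸ hc).1) _).1 h1
    · rintro ⟨c, -, hc⟩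
      exact hx1 (by simpa using hc)
  have i2 : Nat.card M₁ ≤ (C r).relIndex (C x) := by
    refine le_trans ?_ (relIndex_le_of_le_right (hle.trans fun a ha => mem_C.2 (hcm ha hxM))
      index_ne_zero_of_finite)
    rw [PLocal.card_eq_relIndex_mul (C r) M₁, (_ : C r ⊓ M₁ = ⊥), card_bot, mul_one]
    exact eq_bot_iff.2 fun a ha => d1 ▸ ⟨⟨hle ha.2, ha.1⟩, ha.2⟩
  have i3 : (C r).relIndex (C x) * n ≤ (C x₁).relIndex (C (r * x₀)) * (C (r * x₀)).index := by
    rw [← h.hx, ← inf_relIndex_right, relIndex_mul_index inf_le_right, ← inf_relIndex_right,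
      relIndex_mul_index inf_le_right]
    refine Nat.le_of_dvd (Nat.pos_of_ne_zero index_ne_zero_of_finite) (index_dvd_of_le ?_)
    rw [c0]
    rintro c ⟨a1, a2, a3⟩
    refine ⟨a2, mem_C.2 ?_⟩
    rw [← e, ← mul_assoc, mem_C.1 a3, mul_assoc, mem_C.1 a1, mul_assoc]
  have i4 : (C (r * x₀)).index = m := (h.dich _).resolve_left fun e' => by
    have := h.one
    nlinarith
  have hc : ∀ g, ∃ w ∈ M₁, g * x * g⁻¹ = x₀ * w := by
    intro g
    obtain ⟨c, hc, a, ha, rfl⟩ := exists_mul_of_coprime_index (B := C (r * x₀)) (A := C x)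
      (i4 ▸ h.cx) g
    rw [c0] at hc
    refine ⟨c * x₁ * c⁻¹, (mem_normalizer_iff.1 (hn hc.1) _).1 h1, ?_⟩
    calc c * a * x * (c * a)⁻¹ = c * (a * x) * a⁻¹ * c⁻¹ := by group
      _ = (c * x₀) * x₁ * c⁻¹ := by rw [mem_C.1 ha, ← e]; group
      _ = _ := by rw [mem_C.1 hc.2]; group
  constructor
  · rw [← i4, c0, inf_eq_left.2]
    intro c hc'
    obtain ⟨w, hw, ew⟩ := hc c
    have a1 : x₀⁻¹ * (c * x₀ * c⁻¹) ∈ M ⊓ C r ⊓ M₁ := by
      refine mem_inf.2 ⟨mul_mem (inv_mem h0) (mem_inf.2 ⟨Normal.conj_mem inferInstance _ h0.1 c,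
        mul_mem (mul_mem hc' (mem_inf.1 h0).2) (inv_mem hc')⟩), ?_⟩
      have := mul_mem hw (inv_mem ((mem_normalizer_iff.1 (hn hc') _).1 h1))
      convert this using 1
      rw [← inv_mul_eq_iff_eq_mul.2 ew, ← e]; group
    rw [d1, mem_bot, inv_mul_eq_one, eq_mul_inv_iff_mul_eq] at a1
    exact mem_C.2 a1.symm
  · have : K x ≤ M₁ := (closure_le _).2 (by
      rintro _ ⟨g, rfl⟩
      obtain ⟨w, hw, ew⟩ := hc g
      have := mul_mem hw (inv_mem h1)
      change g * x * g⁻¹ * x⁻¹ ∈ M₁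
      convert this using 1
      rw [ew, hcm h0.1 (hle hw), ← e, hcm h0.1 (hle h1)]; group)
    exact eq_bot_iff.2 fun a ha => d1 ▸ ⟨⟨hle (this ha.1), ha.2⟩, this ha.1⟩

end Hyp

end CfsgLib.ClassSz.TopTwo
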