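import Mathlib
import Cfsg.Agent.Lib.ClassSz.TopTwo
import Cfsg.Agent.Lib.Count.Subgroups
import Cfsg.Agent.Lib.Core.SolvCriteria

/-! Groups whose two largest class sizes are coprime: second part. -/

set_option autoImplicit false

namespace CfsgLib.ClassSz.TopTwo

open Subgroup Cfsg CfsgLib.MaxCent CfsgLib.Fgs

variable {G : Type*} [Group G] [Finite G] {m n : ℕ}

omit [Finite G] in
theorem co_of_pow {q k : ℕ} (hq : q.Coprime m) {r : G} (hr : orderOf r = q ^ k) : Co m r := by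
  rw [Co, hr]; exact hq.pow_left k

namespace Hyp

variable {x y : G} (h : Hyp m n x y)
include h

theorem exists_co {H : Subgroup G} (hZ : center G ≤ H) (hn : ¬ n ∣ H.index) :
    ∃ r ∈ H, r ∉ center G ∧ ∃ q k : ℕ, q.Prime ∧ q.Coprime m ∧ orderOf r = q ^ k := by
  have h1 : n ∣ (center G).relIndex H * H.index := by
    rw [relIndex_mul_index hZ, ← h.hx]; exact index_dvd_of_le (center_le_C x)
  obtain ⟨q, hq, hqn, hq'⟩ := Nat.Prime.not_coprime_iff_dvd.1
    (fun e : n.Coprime ((center G).relIndex H) => hn (e.dvd_of_dvd_mul_left h1))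
  have := Fact.mk hq
  obtain ⟨r, hr, hrZ, k, hk⟩ := exists_pelt_not_mem hq'
  exact ⟨r, hr, hrZ, q, k, hq, h.cop.symm.coprime_dvd_left hqn, hk⟩

theorem K_inf_center : K x ⊓ center G = ⊥ := by
  obtain ⟨r, -, hrZ, q, k, -, hq, hk⟩ := h.exists_co (H := ⊤) le_top (by
    rw [index_top, Nat.dvd_one]; exact h.one.ne')
  exact eq_bot_iff.2 ((h.key (co_of_pow hq hk) hrZ).2 ▸ inf_le_inf_left _ (center_le_C r))

theorem C_eq {r v : G} (hr : Co m r) (hrZ : r ∉ center G) (hv : Co m v) (hvZ : v ∉ center G)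
    (hc : v ∈ C r) : C r = C v := by
  have hab : IsMulCommutative (closure ({r, v} : Set G)) := isMulCommutative_closure (by
    rintro a (rfl | rfl) b (rfl | rfl)
    exacts [rfl, (mem_C.1 hc).symm, mem_C.1 hc, rfl])
  have hco : ∀ g ∈ closure ({r, v} : Set G), Co m g := fun g hg => by
    induction hg using closure_induction with
    | mem g hg => rcases hg with rfl | rfl <;> assumption
    | one => simp [Co]
    | mul a b ha hb h1 h2 => exact h1.mul h2 (congrArg Subtype.val (hab.1.1 ⟨a, ha⟩ ⟨b, hb⟩))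
    | inv a _ h1 => exact h1.of_mem (inv_mem (mem_zpowers a))
  have hr' : r ∈ closure ({r, v} : Set G) := subset_closure (.inl rfl)
  have hv' : v ∈ closure ({r, v} : Set G) := subset_closure (.inr rfl)
  generalize closure ({r, v} : Set G) = H at *
  have hP : Frob.PQCond (H.map (π G)) := by
    have := Normal.map (inferInstance : (K x).Normal) (π G) π_surj
    refine Frob.pqCond_of_fpf (K := (K x).map (π G)) (fun e => h.K_ne_bot ?_)
      le_normalizer_of_normal ?_
    · rw [← h.K_inf_center, eq_comm, inf_eq_left]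
      exact fun k hk => π_eq_one.1 (mem_bot.1 (e ▸ mem_map_of_mem _ hk))
    · rintro _ ⟨a, ha, rfl⟩ ha1
      refine eq_bot_iff.2 ?_
      rintro _ ⟨⟨k, hk, rfl⟩, hk'⟩
      have h1 : k⁻¹ * (a * k * a⁻¹) ∈ K x ⊓ center G := by
        refine mem_inf.2 ⟨mul_mem (inv_mem hk) (Normal.conj_mem inferInstance k hk a),
          π_eq_one.1 ?_⟩
        simp only [map_mul, map_inv]
        rw [← mem_C.1 hk']; group
      rw [h.K_inf_center, mem_bot, inv_mul_eq_one, eq_mul_inv_iff_mul_eq] at h1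
      have h2 : k ∈ K x ⊓ C a := ⟨hk, mem_C.2 h1⟩
      rw [(h.key (hco a ha) fun e => ha1 (π_eq_one.2 e)).2, mem_bot] at h2
      rw [h2, map_one]; exact one_mem _
  obtain ⟨_, hw⟩ := (Subgroup.isCyclic_iff_exists_zpowers_eq_top _).1
    (hP.isCyclic_of_comm inferInstance)
  obtain ⟨w, hwH, rfl⟩ : _ ∈ H.map (π G) := hw ▸ mem_zpowers _
  have key : ∀ {a}, a ∈ H → a ∉ center G → C w = C a := by
    intro a ha haZ
    obtain ⟨i, hi⟩ : π G a ∈ zpowers (π G w) := hw ▸ mem_map_of_mem _ ha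
    have h1 : (w ^ i)⁻¹ * a ∈ center G := π_eq_one.1 (by
      rw [map_mul, map_inv, map_zpow, ← hi, inv_mul_cancel])
    refine h.eq_of_le (h.key (hco a ha) haZ).1 rfl fun c hc => ?_
    rw [← mul_inv_cancel_left (w ^ i) a, C_mul_center h1]
    exact mem_C_comm (zpow_mem (mem_C_comm hc) i)
  rw [← key hr' hrZ, key hv' hvZ]

theorem le_C {r : G} (hr : Co m r) (hrZ : r ∉ center G) {g : G} (hg : g ∈ C r) : C r ≤ C g := by
  obtain ⟨u, v, hu, hv, rfl, -, hu', hv'⟩ := parts m g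
  have h1 : C r ≤ C u := by
    have e : C (u * r) = C u ⊓ C r := cent_mul_of_coprime (mem_C.1 (zpowers_le.2 hg hu))
      (hu'.coprime hr)
    exact (h.eq_of_le (h.key hr hrZ).1 e inf_le_right).ge.trans inf_le_left
  have h2 : C r ≤ C v := by
    by_cases hvZ : v ∈ center G
    · exact fun c _ => mem_C_comm (center_le_C c hvZ)
    · exact (h.C_eq hr hrZ hv' hvZ (zpowers_le.2 hg hv)).le
  exact fun c hc => mem_C_comm (mul_mem (mem_C_comm (h1 hc)) (mem_C_comm (h2 hc)))

theorem exists_r : ∃ r ∉ center G, (∃ q k : ℕ, q.Prime ∧ q.Coprime m ∧ orderOf r = q ^ k) ∧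
    C y = C r := by
  obtain ⟨r, hr, hrZ, q, k, hp, hq, hk⟩ := h.exists_co (center_le_C y) (h.hy ▸ h.not_dvd)
  exact ⟨r, hrZ, ⟨q, k, hp, hq, hk⟩,
    (h.eq_of_le h.hy rfl (h.le_C (co_of_pow hq hk) hrZ (mem_C_comm hr))).symm⟩

theorem B_le {g : G} (hg : g ∈ C y) : C y ≤ C g := by
  obtain ⟨r, hrZ, ⟨q, k, -, hq, hk⟩, e⟩ := h.exists_r
  exact e ▸ h.le_C (co_of_pow hq hk) hrZ (e ▸ hg)

theorem conj_B {r : G} (hr : Co m r) (hrZ : r ∉ center G) {g : G} (hg : g ∈ C r) :
    ∃ a, a * g * a⁻¹ ∈ C y := by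
  obtain ⟨s, hsZ, ⟨q, k, hp, hq, hk⟩, e⟩ := h.exists_r
  have := Fact.mk hp
  obtain ⟨a, ha⟩ := Core.exists_conj_le_of_not_dvd_index (N := zpowers s) (H := C r)
    (IsPGroup.of_card (n := k) (by rw [Nat.card_zpowers, hk]))
    (by rw [(h.key hr hrZ).1]; exact hp.coprime_iff_not_dvd.1 hq)
  have h1 := Frob.mem_conj_smul_iff.1 (ha (mem_zpowers s))
  refine ⟨a, e ▸ ?_⟩
  simpa [mul_assoc] using conj_mem_C a (h.le_C hr hrZ h1 hg)

theorem comm {u : G} (hu : Hyp m n u y) : u ∈ C x := by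
  obtain ⟨k, hk⟩ := hu.mu
  have : K u ⊔ zpowers u ≤ C x := by
    rw [← relIndex_eq_one]
    refine Nat.eq_one_of_dvd_coprimes (h.cx.pow_right (k + 1))
      (relIndex_dvd_index_of_normal_right _ _) ((relIndex_dvd_card _ _).trans ?_)
    refine (sup_comm (zpowers u) (K u) ▸ PLocal.PSolv.card_sup_dvd (zpowers u) (K u)).trans ?_
    rw [Nat.card_zpowers, pow_succ]
    exact Nat.mul_dvd_mul hk hu.card_K
  exact this (mem_sup_right (mem_zpowers u))

end Hyp

variable (m n) in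
/-- generated by the elements playing the part of `x` -/
def E (y : G) : Subgroup G := closure {u | Hyp m n u y}

instance (y : G) : (E m n y).Normal := ⟨fun k hk g => by
  have : (E m n y).map (MulAut.conj g).toMonoidHom ≤ E m n y := by
    rw [map_le_iff_le_comap]
    refine (closure_le _).2 fun u hu => subset_closure ?_
    obtain ⟨k, hk⟩ := hu.mu
    exact ⟨hu.lt, hu.one, hu.cop, hu.dich, (index_cent_conj u g).trans hu.hx, hu.hy,
      k, (MulEquiv.orderOf_eq (MulAut.conj g) u).symm ▸ hk⟩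
  exact this (mem_map_of_mem _ hk)⟩

namespace Hyp

variable {x y : G} (h : Hyp m n x y)
include h

theorem E_le : E m n y ≤ C x := (closure_le _).2 fun _ hu => h.comm hu

theorem E_sup : E m n y ⊔ C y = ⊤ := by
  refine Count.eq_top_of_forall_exists_conj_mem _ fun g => ?_
  by_cases hn : n ∣ (C g).index
  · obtain ⟨u, v, hu, hv, rfl, -, hu', hv'⟩ := parts m g
    have h1 : (C (u * v)).index = n := le_antisymm ((h.dich _).resolve_right fun e =>
      h.not_dvd (e ▸ hn)) (Nat.le_of_dvd (Nat.pos_of_ne_zero index_ne_zero_of_finite) hn)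
    have h2 : v ∈ center G := central_of_co h.top h.hy hv' ((h1 ▸ h.cop.symm :
      (C (u * v)).index.Coprime m).coprime_dvd_left (index_dvd_of_le fun c hc =>
        mem_C_comm (zpowers_le.2 (mem_C_comm hc) hv)))
    refine ⟨1, ?_⟩
    rw [one_mul, inv_one, mul_one]
    exact mul_mem (mem_sup_left (subset_closure ⟨h.lt, h.one, h.cop, h.dich,
      C_mul_center h2 u ▸ h1, h.hy, hu'⟩)) (mem_sup_right (center_le_C y h2))
  · obtain ⟨r, hr, hrZ, q, k, -, hq, hk⟩ := h.exists_co (center_le_C g) hn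
    obtain ⟨a, ha⟩ := h.conj_B (co_of_pow hq hk) hrZ (mem_C_comm hr)
    exact ⟨a, mem_sup_right ha⟩

theorem split (g : G) : ∃ e ∈ E m n y, ∃ b ∈ C y, e * b = g :=
  mem_sup_of_normal_left.1 (h.E_sup ▸ mem_top g)

theorem normal : (C x).Normal := ⟨fun c hc g => by
  obtain ⟨e, he, b, hb, rfl⟩ := h.split c
  obtain ⟨e', he', b', hb', rfl⟩ := h.split g
  have h1 := ((C x).mul_mem_cancel_left (h.E_le he)).1 hc
  have := mul_mem (h.E_le (Normal.conj_mem inferInstance e he (e' * b')))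
    (mul_mem (mul_mem (h.E_le he') h1) (inv_mem (h.E_le he')))
  convert this using 1
  calc e' * b' * (e * b) * (e' * b')⁻¹
      = e' * b' * e * (e' * b')⁻¹ * (e' * (b' * b) * b'⁻¹ * e'⁻¹) := by group
    _ = _ := by rw [mem_C.1 (h.B_le hb hb')]; group⟩

theorem central_mu {u : G} (hu : Mu m u) (hB : u ∈ C y) : u ∈ center G := by
  have : E m n y ≤ C u := (closure_le _).2 fun e he => by
    have := he.normal
    obtain ⟨k, hk⟩ := hu
    exact mem_C_comm (Core.mem_of_coprime_orderOf_index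
      ((he.cx.symm.pow_left k).coprime_dvd_left hk))
  exact mem_center_iff.2 fun g => mem_C.1 (sup_le this (h.B_le hB) (h.E_sup ▸ mem_top g))

theorem central_inf {g : G} (hA : g ∈ C x) (hB : g ∈ C y) : g ∈ center G := by
  obtain ⟨u, v, hu, hv, rfl, -, hu', hv'⟩ := parts m g
  exact mul_mem (h.central_mu hu' (zpowers_le.2 hB hu)) (h.central hv' (zpowers_le.2 hA hv))

theorem A_le {g : G} (hg : g ∈ C x) : C x ≤ C g := by
  intro c hc
  obtain ⟨e, he, b, hb, rfl⟩ := h.split c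
  obtain ⟨e', he', b', hb', rfl⟩ := h.split g
  rw [C_mul_center (h.central_inf (((C x).mul_mem_cancel_left (h.E_le he')).1 hg) hb')]
  refine mul_mem ?_ (center_le_C _ (h.central_inf
    (((C x).mul_mem_cancel_left (h.E_le he)).1 hc) hb))
  have : E m n y ≤ C e := (closure_le _).2 fun u hu => mem_C_comm (hu.E_le he)
  exact mem_C_comm (this he')

theorem C_eq_B {d : G} (hd : d ∈ C y) (hdZ : d ∉ center G) : C d = C y := by
  obtain ⟨u, v, hu, hv, rfl, -, hu', hv'⟩ := parts m d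
  have h1 := h.central_mu hu' (zpowers_le.2 hd hu)
  rw [← mem_center_iff.1 h1 v] at hdZ ⊢
  rw [C_mul_center h1]
  have hvZ : v ∉ center G := fun e => hdZ (mul_mem e h1)
  exact h.eq_of_le h.hy rfl (h.le_C hv' hvZ (mem_C_comm (zpowers_le.2 hd hv)))

theorem ti {g d : G} (hd : d ∈ C y) (hdZ : d ∉ center G) (hg : g * d * g⁻¹ ∈ C y) : g ∈ C y := by
  obtain ⟨r, hrZ, ⟨q, k, -, hq, hk⟩, er⟩ := h.exists_r
  have h1 : g * r * g⁻¹ ∈ C y := h.C_eq_B hg (conj_notMem_center g hdZ) ▸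
    conj_mem_C g (h.C_eq_B hd hdZ ▸ er ▸ self_mem_C r)
  obtain ⟨e, he, b, hb, rfl⟩ := h.split g
  refine mul_mem ?_ hb
  obtain ⟨u, v, hu, hv, rfl, -, ⟨j, hj⟩, hv'⟩ := parts m e
  have hA := h.E_le he
  have hvZ := h.central hv' (zpowers_le.2 hA hv)
  refine mul_mem ?_ (center_le_C y hvZ)
  have h2 : u * v * b * r * (u * v * b)⁻¹ = u * r * u⁻¹ := by
    calc u * v * b * r * (u * v * b)⁻¹ = u * (v * (b * r) * b⁻¹ * v⁻¹) * u⁻¹ := by group
      _ = _ := by
        rw [mem_C.1 (er ▸ hb : b ∈ C r), mul_assoc v, mul_inv_cancel_right, ← mem_center_iff.1 hvZ r]; group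
  have := h.normal
  have h3 : u * r * u⁻¹ * r⁻¹ ∈ center G := by
    refine h.central_inf ?_ (mul_mem (h2 ▸ h1) (inv_mem (er ▸ self_mem_C r)))
    have := mul_mem (zpowers_le.2 hA hu) (this.conj_mem _ (inv_mem (zpowers_le.2 hA hu)) r)
    simpa [mul_assoc] using this
  have h4 := pow_eq_one_of_central (k := u) (h := r) h3 (by group) (m := orderOf r) (by simp)
  have h5 := pow_eq_one_of_central (k := r) (h := u) (inv_mem h3) (by group) (m := orderOf u)
    (by simp)
  rw [inv_pow, inv_eq_one] at h5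
  have h6 := pow_gcd_eq_one.2 ⟨h5, h4⟩
  rw [Nat.Coprime.gcd_eq_one (Mu.coprime ⟨j, hj⟩ (co_of_pow hq hk)), pow_one, mul_inv_eq_one,
    mul_inv_eq_iff_eq_mul] at h6
  exact er ▸ mem_C.2 h6

theorem frob : IsFrobeniusComplement ((C y).map (π G)) := by
  have hyZ : y ∉ center G := fun e => by
    have := h.one
    have := h.lt
    rw [← h.hy, index_cent_eq_one_iff.2 e] at this
    omega
  refine Frob.isFrobeniusComplement_iff.2 ⟨fun e => hyZ (π_eq_one.1 ?_), fun e => ?_, ?_⟩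
  · exact mem_bot.1 (e ▸ π_mem_C.2 (self_mem_C y))
  · exact C_ne_top hyZ (eq_top_iff.2 fun n _ => π_mem_C.1 (e ▸ mem_top _))
  · intro g d hd hd1 hg
    obtain ⟨g, rfl⟩ := π_surj g
    obtain ⟨d, rfl⟩ := π_surj d
    rw [← map_inv, ← map_mul, ← map_mul] at hg
    rw [π_mem_C] at hd hg ⊢
    exact h.ti hd (fun e => hd1 (π_eq_one.2 e)) hg

theorem kernel : frobeniusKernel ((C y).map (π G)) = (C x).map (π G) := by
  obtain ⟨N, hN, hNn, hc⟩ := Frob.exists_kernel h.frob
  have h1 : (C x).map (π G) ≤ N := by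
    rintro _ ⟨a, ha, rfl⟩
    rw [← SetLike.mem_coe, hN, Frob.mem_kernel_iff, π_eq_one, or_iff_not_imp_left]
    intro haZ g hg
    obtain ⟨g, rfl⟩ := π_surj g
    rw [← map_inv, ← map_mul, ← map_mul, π_mem_C] at hg
    exact conj_notMem_center g haZ (h.central_inf (h.normal.conj_mem a ha g) hg)
  rw [← hN]
  refine congrArg _ (le_antisymm (fun k hk => ?_) h1)
  obtain ⟨k, rfl⟩ := π_surj k
  obtain ⟨e, he, b, hb, rfl⟩ := h.split k
  have h2 := mem_map_of_mem (π G) (h.E_le he)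
  rw [map_mul] at hk ⊢
  rw [disjoint_def.1 hc.disjoint ((N.mul_mem_cancel_left (h1 h2)).1 hk) (π_mem_C.2 hb), mul_one]
  exact h2

end Hyp

theorem main (lt : n < m) (one : 1 < n) (cop : m.Coprime n)
    (htop : ∀ z : G, (C z).index ≤ m) (h2 : ∀ z : G, (C z).index < m → (C z).index ≤ n)
    {x y : G} (hx : (C x).index = n) (hy : (C y).index = m) :
    IsMulCommutative (C x) ∧ IsMulCommutative (C y) ∧ IsFrobeniusComplement ((C y).map (π G)) ∧
      frobeniusKernel ((C y).map (π G)) = (C x).map (π G) := by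
  obtain ⟨u, v, hu, hv, rfl, -, hu', hv'⟩ := parts m x
  have h1 : v ∈ center G := central_of_co htop hy hv' ((hx ▸ cop.symm :
    (C (u * v)).index.Coprime m).coprime_dvd_left (index_dvd_of_le fun c hc =>
      mem_C_comm (zpowers_le.2 (mem_C_comm hc) hv)))
  rw [C_mul_center h1] at hx ⊢
  have h : Hyp m n u y := ⟨lt, one, cop, fun z => (htop z).lt_or_eq.imp_left (h2 z), hx, hy, hu'⟩
  exact ⟨⟨⟨fun a b => Subtype.ext (mem_C.1 (h.A_le b.2 a.2))⟩⟩,
    ⟨⟨fun a b => Subtype.ext (mem_C.1 (h.B_le b.2 a.2))⟩⟩, h.frob, h.kernel⟩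

end CfsgLib.ClassSz.TopTwo
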