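/-
Normal subgroups with two `G`-class sizes containing a noncentral Sylow subgroup are nilpotent;
Ito's theorem on groups with two class sizes.
-/
import Mathlib
import Cfsg.Agent.Lib.ClassSz.TwoSizes

set_option autoImplicit false

namespace CfsgLib.ClassSz

open Subgroup CfsgLib.Fgs CfsgLib.Core Cfsg
open scoped commutatorElement

universe u

variable {G : Type u} [Group G]

theorem relIndex_center_mul (N C : Subgroup G) (hC : center G ≤ C) :
    (center G).relIndex (N ⊓ C) * C.relIndex N = (center G).relIndex N := by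
  rw [inf_comm N C, relIndex_inf_mul_relIndex, inf_eq_left.2 hC]

namespace TwoSz

variable [Finite G] {N : Subgroup G} {m : ℕ}

theorem relIndex_dvd (h : TwoSz N m) {u : G} (hu : u ∈ N) (huZ : u ∉ center G) :
    (centralizer ({u} : Set G)).relIndex N ∣ m :=
  haveI := h.normal
  h.size u hu huZ ▸ relIndex_dvd_index_of_normal_right _ N

section Main

variable {r : ℕ} [hr : Fact r.Prime] (R : Sylow r G)

theorem mem_of_relt (h : TwoSz N m) (hRN : (R : Subgroup G) ≤ N) {w : G}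
    (hw : ∃ k, orderOf w = r ^ k) : w ∈ N := by
  obtain ⟨g, hg⟩ := exists_conj_mem_sylow R hw
  have := h.normal.conj_mem _ (hRN hg) g⁻¹
  simpa only [inv_inv, mul_assoc, inv_mul_cancel_left, inv_mul_cancel, mul_one] using this

theorem exists_relt (h : TwoSz N m) (hR : ¬ (R : Subgroup G) ≤ center G)
    (hRN : (R : Subgroup G) ≤ N) {u : G} (hu : u ∈ N) (huZ : u ∉ center G) :
    ∃ w ∈ N, w ∈ centralizer ({u} : Set G) ∧ w ∉ center G ∧ ∃ k, orderOf w = r ^ k := by
  obtain ⟨w, hw, hwZ⟩ := SetLike.not_le_iff_exists.1 hR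
  have h1 := dvd_relIndex_of_pelt hr.out le_normalizer_of_normal (self_mem_cent w) hwZ
    (orderOf_eq_pow_of_mem_isPGroup R.isPGroup' hw)
  have h2 := relIndex_mul_index (center_le_cent w)
  rw [← relIndex_mul_index (center_le_cent u), h.size u hu huZ, h.size w (hRN hw) hwZ] at h2
  rw [Nat.eq_of_mul_eq_mul_right (h.size u hu huZ ▸ Nat.pos_of_ne_zero FiniteIndex.index_ne_zero)
    h2] at h1
  obtain ⟨v, hv, hvZ, hv'⟩ := exists_pelt_not_mem h1
  exact ⟨v, h.mem_of_relt R hRN hv', hv, hvZ, hv'⟩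

theorem good_of_not_dvd (h : TwoSz N m) (hR : ¬ (R : Subgroup G) ≤ center G)
    (hRN : (R : Subgroup G) ≤ N) {x : G} (hx : x ∈ N) (hxZ : x ∉ center G)
    (hxr : ¬ r ∣ orderOf x) : GoodC N (centralizer {x}) := by
  obtain ⟨w, hw, hwx, hwZ, hwr⟩ := h.exists_relt R hR hRN hx hxZ
  exact h.good_of_pair hx hxZ hxr hw hwZ hwr (mem_cent_iff.1 hwx)

theorem dvd_relIndex_cent (h : TwoSz N m) (hRN : (R : Subgroup G) ≤ N) (hrm : r ∣ m) {u : G}
    (hu : u ∈ N) (huZ : u ∉ center G) : r ∣ (centralizer ({u} : Set G)).relIndex N := by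
  have h1 : r ∣ (centralizer ({u} : Set G)).relIndex N * N.index := by
    rw [relIndex_mul_index_comm, h.size u hu huZ]
    exact hrm.mul_left _
  exact (hr.out.dvd_mul.1 h1).resolve_right (not_dvd_index_of_sylow_le R hRN)

theorem other_prime (h : TwoSz N m) (hR : ¬ (R : Subgroup G) ≤ center G)
    (hRN : (R : Subgroup G) ≤ N) (hrm : r ∣ m) {q : ℕ} [hq : Fact q.Prime] (hqr : q ≠ r)
    (hqN : q ∣ (center G).relIndex N) :
    ¬ q * q ∣ m ∧ ∀ u ∈ N, u ∉ center G → q ∣ (center G).relIndex (N ⊓ centralizer {u}) := by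
  have hn := h.normal
  have hcop : q.Coprime r := (Nat.coprime_primes hq.out hr.out).2 hqr
  obtain ⟨S⟩ : Nonempty (Sylow q G) := inferInstance
  set Q := (S : Subgroup G) ⊓ N with hQ
  have hQN : ¬ q ∣ Q.relIndex N := by
    rw [hQ, inf_relIndex_right]
    exact fun h1 => S.not_dvd_index (h1.trans (relIndex_dvd_index_of_normal_right _ N))
  obtain ⟨x, hx, hxZ, hx1, hx2⟩ := exists_second_center_rel (Z := center G) (D := Q) S.isPGroup'
    inf_le_left (CfsgLib.BGI.le_normalizer_inf le_normalizer le_normalizer_of_normal)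
    fun h1 => hQN (hqN.trans (relIndex_dvd_of_le_left _ h1))
  obtain ⟨j, hj⟩ := orderOf_eq_pow_of_mem_isPGroup S.isPGroup' hx.1
  have hg := h.good_of_not_dvd R hR hRN hx.2 hxZ fun h1 => hqr
    ((Nat.prime_dvd_prime_iff_eq hr.out hq.out).1 (hr.out.dvd_of_dvd_pow (hj ▸ h1))).symm
  obtain ⟨w, hw, hwx, hwZ, i, hi⟩ := h.exists_relt R hR hRN hx.2 hxZ
  have hqq := h.not_sq_dvd S hx.2 hxZ hx1 hx2 hg hw hwZ hwx (hi ▸ hcop.symm.pow_left i)
  refine ⟨hqq, fun u hu huZ => by_contra fun hu' => ?_⟩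
  have h1 := relIndex_center_mul N _ (center_le_cent u)
  have h2 := h.relIndex_dvd hu huZ
  have hcop' := hq.out.coprime_iff_not_dvd.2 hu'
  have hqm : q ∣ m := (hcop'.dvd_of_dvd_mul_left (h1 ▸ hqN)).trans h2
  have h3 : (center G).relIndex Q = q := by
    obtain ⟨k, hk⟩ := (S.isPGroup'.to_inf_left (K := N)).index ((center G).subgroupOf Q)
    change (center G).relIndex Q = _ at hk
    have h4 : (center G).relIndex Q ∣ (center G).relIndex N := by
      rw [← relIndex_subgroupOf (inf_le_right : Q ≤ N)]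
      exact relIndex_dvd_index_of_normal _ _
    rcases k with _ | _ | k
    · exact absurd (relIndex_eq_one.1 hk hx) hxZ
    · rw [hk]; simp
    · exfalso
      refine hqq (((Nat.Coprime.mul_left hcop' hcop').dvd_of_dvd_mul_left ?_).trans h2)
      rw [h1]
      exact Dvd.dvd.trans ⟨q ^ k, by rw [hk]; ring⟩ h4
  have hQL : ∀ L : Subgroup G, center G ≤ L → x ∈ L → Q ≤ L := fun L hL hxL => by
    rw [← inf_relIndex_right] at h3
    rcases eq_or_eq_of_relIndex_prime (L := L ⊓ Q) (h3 ▸ hq.out) (inf_le_inf_right _ hL)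
      inf_le_right with h4 | h4
    · exact absurd (h4.le ⟨hxL, hx⟩).1 hxZ
    · exact h4.ge.trans inf_le_left
  have hQC := hQL _ (center_le_cent x) (self_mem_cent x)
  have hT : ∀ a ∈ N, a ∈ normalizer (Q : Set G) → ∀ L : Subgroup G, Q ≤ L → ∀ k, a ^ q ^ k ∈ L →
      a ∈ L := fun a ha haQ L hL k hk => by
    have : (Q.subgroupOf (N ⊓ normalizer (Q : Set G))).Normal :=
      normal_subgroupOf_of_le_normalizer inf_le_right
    refine CfsgLib.SolvStruct.mem_of_pow_mem_of_coprime hk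
      (hL ((Q.subgroupOf (N ⊓ normalizer (Q : Set G))).pow_index_mem ⟨a, ha, haQ⟩))
      (Nat.Coprime.pow_left k (hq.out.coprime_iff_not_dvd.2 fun h4 => hQN (h4.trans ?_)))
    exact Dvd.intro _ (relIndex_mul_relIndex Q _ N (le_inf inf_le_right le_normalizer) inf_le_left)
  obtain ⟨y, hyN, hyC, hyx, l, hl⟩ := h.exists_normalizing (s := r) hx.2 hg
    (h.dvd_relIndex_cent R hRN hrm hx.2 hxZ) (dvd_relIndex_of_pelt hr.out le_normalizer_of_normal
      (show w ∈ N ⊓ centralizer {x} from ⟨hw, hwx⟩) hwZ ⟨i, hi⟩)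
  have hyQ : y ∈ normalizer (Q : Set G) := mem_normalizer_of_forall_conj_mem fun a ha => by
    obtain ⟨k, hk⟩ := isPGroup_subgroup_iff.1 S.isPGroup' a ha.1
    have ha' := (mem_normalizer_iff.1 hyC a).1 (hQC ha)
    refine hT _ (hn.conj_mem _ ha.2 y) (centralizer_le_normalizer _ fun b hb => ?_) Q le_rfl k
      (by rw [conj_pow, hk, mul_one, mul_inv_cancel]; exact one_mem _)
    exact (mem_cent_iff.1 (hg b hb.2 (hQC hb) ha')).eq
  obtain ⟨g, hgS, hgC⟩ : ∃ g ∈ (S : Subgroup G), g ∉ centralizer ({x} : Set G) :=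
    SetLike.not_le_iff_exists.1 fun h4 => not_dvd_index_of_sylow_le S h4 (h.size x hx.2 hxZ ▸ hqm)
  have hgQ : ∀ a ∈ Q, ⁅g, a⁆ ∈ center G := fun a ha => (commute_mk_iff _).1 (mem_cent_iff.1
    (hQL ((centralizer {(g : G ⧸ center G)}).comap (QuotientGroup.mk' _)) (fun z hz => by
      rw [mem_comap, QuotientGroup.mk'_apply, (QuotientGroup.eq_one_iff z).2 hz]; exact one_mem _)
      (mem_cent_iff.2 ((commute_mk_iff _).2 (hx1 g hgS))) ha))
  have hgn : g ∈ normalizer (Q : Set G) :=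
    CfsgLib.BGI.le_normalizer_inf le_normalizer le_normalizer_of_normal hgS
  have hax : ⁅⁅y, g⁆, x⁆ ∈ center G := by
    have h4 : ⁅y * g * y⁻¹, x⁆ ∈ center G := by
      have h5 := (inferInstance : (center G).Normal).conj_mem _
        (hgQ _ ((mem_normalizer_iff.1 (inv_mem hyQ) x).1 hx)) y
      rw [conjugate_commutatorElement] at h5
      simpa only [inv_inv, mul_assoc, mul_inv_cancel_left, mul_inv_cancel, mul_one] using h5
    rw [← commute_mk_iff] at h4 ⊢
    rw [commutatorElement_def, QuotientGroup.mk_mul, QuotientGroup.mk_inv]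
    exact h4.mul_left ((commute_mk_iff _).2 (hx1 g hgS)).inv_left
  have haN : ⁅y, g⁆ ∈ N := by
    rw [commutatorElement_def, mul_assoc, mul_assoc, ← mul_assoc g]
    exact mul_mem hyN (hn.conj_mem _ (inv_mem hyN) g)
  have haC : ⁅y, g⁆ ∈ centralizer ({x} : Set G) := by
    refine hT _ haN (commutator_le_of_le le_rfl le_rfl (commutator_mem_commutator hyQ hgn)) _ hQC 1
      (mem_cent_iff.2 (commutatorElement_eq_one_iff_commute.1 ?_).symm)
    rw [pow_one, commutatorElement_pow_left_of_commute (mem_center_iff.1 hax _),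
      ← commutatorElement_pow_right_of_commute (mem_center_iff.1 hax x),
      commutatorElement_eq_one_iff_commute]
    exact mem_center_iff.1 hx2 _
  have hx' := (mem_normalizer_iff.1 hyQ x).1 hx
  have h4 : ⁅g, y * x * y⁻¹⁆ = ⁅g, x⁆ := by
    have h5 := conjugate_commutatorElement g x y
    rw [mem_center_iff.1 (hx1 g hgS) y, mul_inv_cancel_right,
      show y * g * y⁻¹ = ⁅y, g⁆ * g by rw [commutatorElement_def]; group,
      commutatorElement_mul_left_of_commute (mem_center_iff.1 (hgQ _ hx') _),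
      commutatorElement_eq_one_iff_commute.2 (mem_cent_iff.1 (hg _ hx'.2 (hQC hx') haC)).symm,
      mul_one] at h5
    exact h5.symm
  have ht : ⁅y, x⁆ ∈ Q := mul_mem hx' (inv_mem hx)
  have h5 : Commute ⁅y, x⁆ g := by
    have h6 := mem_center_iff.1 (hx1 g hgS)
    have e1 : g * (y * x * y⁻¹) * g⁻¹ = ⁅g, x⁆ * (y * x * y⁻¹) := by
      rw [← h4, commutatorElement_def]; group
    have e2 : g * x * g⁻¹ = ⁅g, x⁆ * x := by rw [commutatorElement_def]; group
    refine (mul_inv_eq_iff_eq_mul.1 ?_).symm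
    calc g * ⁅y, x⁆ * g⁻¹ = g * (y * x * y⁻¹) * g⁻¹ * (g * x * g⁻¹)⁻¹ := by
          rw [commutatorElement_def]; group
      _ = ⁅y, x⁆ := by rw [e1, e2, ← h6, ← h6 x, commutatorElement_def y]; group
  by_cases htZ : ⁅y, x⁆ ∈ center G
  · exact hyx (mem_cent_iff.2 (commute_of_comm_central_of_coprime htZ hx2
      (hl ▸ hcop.symm.pow_left l)).symm)
  · exact hgC (h.good_eq hx.2 hg ht.2 (hQC ht) htZ ▸ mem_cent_iff.2 h5)

theorem false_of_dvd (h : TwoSz N m) (hR : ¬ (R : Subgroup G) ≤ center G)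
    (hRN : (R : Subgroup G) ≤ N) (hrm : r ∣ m) {q : ℕ} [hq : Fact q.Prime] (hqr : q ≠ r)
    (hqN : q ∣ (center G).relIndex N) : False := by
  have hn := h.normal
  have hcop : q.Coprime r := (Nat.coprime_primes hq.out hr.out).2 hqr
  have hq' : ∀ u ∈ N, u ∉ center G → ∃ x ∈ N, x ∈ centralizer ({u} : Set G) ∧ x ∉ center G ∧
      ∃ k, orderOf x = q ^ k := fun u hu huZ => by
    obtain ⟨x, hx, hx'⟩ := exists_pelt_not_mem ((h.other_prime R hR hRN hrm hqr hqN).2 u hu huZ)
    exact ⟨x, hx.1, hx.2, hx'⟩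
  have hnd : ∀ {x : G} {k : ℕ}, orderOf x = q ^ k → ¬ r ∣ orderOf x := fun hk h1 => hqr
    ((Nat.prime_dvd_prime_iff_eq hr.out hq.out).1 (hr.out.dvd_of_dvd_pow (hk ▸ h1))).symm
  have hgood : ∀ u ∈ N, u ∉ center G → GoodC N (centralizer {u}) := by
    intro u hu huZ
    obtain ⟨a, b, ha, hb, hab, -, ⟨k, ha'⟩, hb'⟩ := exists_p_part r u
    have haN := zpowers_le.2 hu ha
    have hbN := zpowers_le.2 hu hb
    by_cases hbZ : b ∈ center G
    · have haZ : a ∉ center G := fun h1 => huZ (hab ▸ mul_mem h1 hbZ)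
      rw [h.ceq hu haN haZ (cent_le_cent_of_mem_zpowers ha)]
      obtain ⟨x, hx, hxa, hxZ, l, hl⟩ := hq' a haN haZ
      rw [h.ceq haN hx hxZ (h.le_of_coprime haN hx haZ (mem_cent_iff.1 hxa)
        (ha' ▸ hl ▸ hcop.symm.pow k l))]
      exact h.good_of_not_dvd R hR hRN hx hxZ (hnd hl)
    · rw [h.ceq hu hbN hbZ (cent_le_cent_of_mem_zpowers hb)]
      exact h.good_of_not_dvd R hR hRN hbN hbZ hb'
  have hall : ∀ s : ℕ, s.Prime → s ∣ (center G).relIndex N → ¬ s * s ∣ m ∧
      ∀ u ∈ N, u ∉ center G → s ∣ (center G).relIndex (N ⊓ centralizer {u}) := by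
    intro s hs hsN
    by_cases hsr : s = r
    · subst hsr
      obtain ⟨x, hx, hxZ, hx1, hx2⟩ := exists_second_center_rel R.isPGroup' le_rfl le_normalizer hR
      obtain ⟨b, hb, hbx, hbZ, l, hl⟩ := hq' x (hRN hx) hxZ
      refine ⟨h.not_sq_dvd R (hRN hx) hxZ hx1 hx2 (hgood x (hRN hx) hxZ) hb hbZ hbx
        (hl ▸ hcop.pow_left l), fun u hu huZ => ?_⟩
      obtain ⟨w, hw, hwu, hwZ, hw'⟩ := h.exists_relt R hR hRN hu huZ
      exact dvd_relIndex_of_pelt hs le_normalizer_of_normal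
        (show w ∈ N ⊓ centralizer {u} from ⟨hw, hwu⟩) hwZ hw'
    · have := Fact.mk hs
      exact h.other_prime R hR hRN hrm hsr hsN
  have hnorm : ∀ u ∈ N, u ∉ center G →
      N ≤ normalizer ((centralizer ({u} : Set G) : Subgroup G) : Set G) := by
    intro u hu huZ
    rw [← relIndex_eq_one]
    by_contra h1
    obtain ⟨s, hs, hd⟩ := Nat.exists_prime_and_dvd h1
    have := Fact.mk hs
    have h2 := hd.trans (relIndex_dvd_of_le_left N le_normalizer)
    obtain ⟨h3, h4⟩ := hall s hs (h2.trans (relIndex_dvd_of_le_left N (center_le_cent u)))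
    obtain ⟨y, hyN, hyC, hyu, hy⟩ := h.exists_normalizing hu (hgood u hu huZ) h2 (h4 u hu huZ)
    have h5 := dvd_relIndex_of_pelt hs (H := normalizer
      ((centralizer ({u} : Set G) : Subgroup G) : Set G) ⊓ N) inf_le_left ⟨hyC, hyN⟩ hyu hy
    refine h3 ((mul_dvd_mul h5 hd).trans ?_)
    rw [relIndex_inf_mul_relIndex, inf_eq_left.2 le_normalizer]
    exact h.relIndex_dvd hu huZ
  obtain ⟨w, hw, hwZ⟩ := SetLike.not_le_iff_exists.1 hR
  obtain ⟨u, hu, huw⟩ : ∃ u ∈ N, u ∉ centralizer ({w} : Set G) :=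
    SetLike.not_le_iff_exists.1 fun h1 => hr.out.one_lt.ne' (Nat.dvd_one.1
      (relIndex_eq_one.2 h1 ▸ h.dvd_relIndex_cent R hRN hrm (hRN hw) hwZ))
  have huZ : u ∉ center G := fun h1 => huw (center_le_cent w h1)
  obtain ⟨x, hx, hxu, hxZ, l, hl⟩ := hq' u hu huZ
  have key : ∀ v ∈ N, v ∉ center G → v ∈ centralizer ({w} : Set G) →
      v ∈ centralizer ({u} : Set G) → False := fun v hv hvZ h1 h2 => huw (by
    rw [h.good_eq (hRN hw) (hgood w (hRN hw) hwZ) hv h1 hvZ, ← h.good_eq hu (hgood u hu huZ) hv h2 hvZ]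
    exact self_mem_cent u)
  by_cases hc : ⁅w, x⁆ ∈ center G
  · obtain ⟨k, hk⟩ := orderOf_eq_pow_of_mem_isPGroup R.isPGroup' hw
    exact key x hx hxZ (mem_cent_iff.2 (commute_of_comm_central_of_coprime (n := q ^ l) hc
      (by rw [← hl, pow_orderOf_eq_one]; exact one_mem _) (hk ▸ hcop.symm.pow k l))) hxu
  · refine key _ (commutator_le_of_le le_rfl le_rfl (commutator_mem_commutator (hRN hw) hx)) hc ?_ ?_
    · rw [commutatorElement_def, mul_assoc, mul_assoc, ← mul_assoc x]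
      exact mul_mem (self_mem_cent w) ((mem_normalizer_iff.1 (hnorm w (hRN hw) hwZ hx) _).1
        (inv_mem (self_mem_cent w)))
    · exact mul_mem ((mem_normalizer_iff.1 (hnorm u hu huZ (hRN hw)) _).1 hxu) (inv_mem hxu)

theorem commute_of_not_dvd (h : TwoSz N m) (hR : ¬ (R : Subgroup G) ≤ center G)
    (hRN : (R : Subgroup G) ≤ N) (hrm : ¬ r ∣ m) {u v : G} (hu : u ∈ N) (hv : v ∈ N) :
    Commute v u := by
  have hn := h.normal
  have h1 : N ≤ centralizer ((R : Subgroup G) : Set G) := by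
    rw [← subgroupOf_eq_top]
    refine CfsgLib.Count.eq_top_of_forall_exists_conj_mem _ fun x => ?_
    obtain ⟨P, hP⟩ := exists_sylow_le_of_not_dvd_index (p := r) (H := centralizer {(x : G)}) (by
      by_cases hxZ : (x : G) ∈ center G
      · rw [index_cent_eq_one_iff.2 hxZ]; exact hr.out.not_dvd_one
      · rwa [h.size x x.2 hxZ])
    obtain ⟨g, rfl⟩ := MulAction.exists_smul_eq G R P
    have hg : g ∈ N ⊔ normalizer ((R : Subgroup G) : Set G) := by
      rw [sup_comm, show normalizer ((R : Subgroup G) : Set G) ⊔ N = ⊤ from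
        R.normalizer_sup_eq_top' hRN]
      trivial
    obtain ⟨n, hn', k, hk, rfl⟩ := mem_sup_of_normal_left.1 hg
    refine ⟨⟨n, hn'⟩⁻¹, fun a ha => ?_⟩
    have h2 : n * a * n⁻¹ ∈ ((n * k) • R : Sylow r G) := by
      change n * a * n⁻¹ ∈ (((n * k) • R : Sylow r G) : Subgroup G)
      rw [Sylow.coe_subgroup_smul, mem_conj_smul_iff]
      have := (mem_normalizer_iff.1 (inv_mem hk) a).1 ha
      simpa only [inv_inv, mul_assoc, mul_inv_rev, inv_mul_cancel_left] using this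
    have h3 := (mem_cent_iff.1 (hP h2)).eq
    change a * (n⁻¹ * x * n⁻¹⁻¹) = n⁻¹ * x * n⁻¹⁻¹ * a
    calc a * (n⁻¹ * x * n⁻¹⁻¹) = n⁻¹ * (n * a * n⁻¹ * x) * n := by group
      _ = _ := by rw [← h3]; group
  obtain ⟨w, hw, hwZ⟩ := SetLike.not_le_iff_exists.1 hR
  obtain ⟨a, b, ha, hb, rfl, -, ha', hb'⟩ := exists_p_part r v
  refine Commute.mul_left ?_ ?_
  · obtain ⟨g, hg⟩ := exists_conj_mem_sylow R ha'
    have h2 := h1 (hn.conj_mem _ hu g) _ hg
    change a * u = u * a
    calc a * u = g⁻¹ * (g * a * g⁻¹ * (g * u * g⁻¹)) * g := by group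
      _ = _ := by rw [h2]; group
  · obtain ⟨k, hk⟩ := orderOf_eq_pow_of_mem_isPGroup R.isPGroup' hw
    have hbN := zpowers_le.2 hv hb
    exact mem_cent_iff.1 (h.le_of_coprime (hRN hw) hbN hwZ (h1 hbN w hw)
      (hk ▸ Nat.Coprime.pow_left k (hr.out.coprime_iff_not_dvd.2 hb')) (mem_cent_iff.2 (h1 hu w hw)))

theorem isNilpotent (h : TwoSz N m) (hR : ¬ (R : Subgroup G) ≤ center G)
    (hRN : (R : Subgroup G) ≤ N) : Group.IsNilpotent N := by
  by_cases hrm : r ∣ m
  swap
  · have : IsMulCommutative N :=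
      ⟨⟨fun a b => Subtype.ext (h.commute_of_not_dvd R hR hRN hrm b.2 a.2)⟩⟩
    exact isNilpotent_subgroup_of_isMulCommutative N
  have h1 : ∀ q : ℕ, q.Prime → q ≠ r → ∀ x ∈ N, (∃ k, orderOf x = q ^ k) → x ∈ center G := by
    intro q hq hqr x hx hk
    by_contra hxZ
    have := Fact.mk hq
    exact h.false_of_dvd R hR hRN hrm hqr
      (dvd_relIndex_of_pelt hq le_normalizer_of_normal hx hxZ hk)
  refine isNilpotent_of_commute_coprime fun p hp x y ⟨k, hx⟩ hy => Subtype.ext ?_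
  by_cases hpr : p = r
  · have h2 : zpowers (y : G) ≤ center G := by
      refine CfsgLib.Count.le_of_primePow_mem _ _ fun z hz q j hq hj => ?_
      by_cases hqr : q = r
      · have h3 : orderOf z ∣ orderOf y := by
          rw [← Subgroup.orderOf_coe]; exact orderOf_dvd_of_mem_zpowers hz
        have : z = 1 := orderOf_eq_one_iff.1 (Nat.eq_one_of_dvd_coprimes (hy.pow_right j) h3
          (by rw [hj, hqr, hpr]))
        rw [this]; exact one_mem _
      · exact h1 q hq hqr z (zpowers_le.2 y.2 hz) ⟨j, hj⟩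
    exact (mem_center_iff.1 (h2 (mem_zpowers _)) x).symm
  · obtain ⟨j, -, hj⟩ := (Nat.dvd_prime_pow hp).1 (orderOf_dvd_of_pow_eq_one hx)
    exact mem_center_iff.1 (h1 p hp hpr x x.2 ⟨j, by rw [Subgroup.orderOf_coe, hj]⟩) y

end Main

end TwoSz

theorem two_sizes_normal_nilpotent [Finite G] {r : ℕ} [Fact r.Prime] (R : Sylow r G)
    (hR : ¬ (R : Subgroup G) ≤ center G) (N : Subgroup G) [hN : N.Normal]
    (hRN : (R : Subgroup G) ≤ N) (m : ℕ)
    (h : ∀ x ∈ N, (centralizer ({x} : Set G)).index = 1 ∨ (centralizer ({x} : Set G)).index = m) :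
    Group.IsNilpotent N :=
  TwoSz.isNilpotent R ⟨hN, fun x hx hxZ =>
    (h x hx).resolve_left fun h1 => hxZ (index_cent_eq_one_iff.1 h1)⟩ hR hRN

/-- Ito's theorem on groups with two class sizes. -/
theorem ito_two_sizes [Finite G] (n : ℕ) (hn : 1 < n)
    (h : ∀ x : G, (centralizer ({x} : Set G)).index = 1 ∨ (centralizer ({x} : Set G)).index = n)
    (hex : ∃ x : G, (centralizer ({x} : Set G)).index = n) :
    ∃ (p : ℕ) (_ : Fact p.Prime) (a : ℕ), n = p ^ a ∧ ∀ P : Sylow p G, (P : Subgroup G).Normal ∧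
      (∃ N : Subgroup G, N.Normal ∧ N.IsComplement' (P : Subgroup G) ∧ IsMulCommutative N ∧
        ∀ x ∈ N, ∀ y ∈ (P : Subgroup G), x * y = y * x) ∧
      ∃ A : Subgroup (P : Subgroup G), A.Normal ∧ IsMulCommutative A ∧
        ∀ y : (P : Subgroup G), y ^ p ∈ A := by
  obtain ⟨x, hx⟩ := hex
  obtain ⟨p, hp, hd⟩ := Nat.exists_prime_and_dvd hn.ne'
  have := Fact.mk hp
  have ht : TwoSz (⊤ : Subgroup G) n := ⟨inferInstance, fun x _ hxZ =>
    (h x).resolve_left fun h1 => hxZ (index_cent_eq_one_iff.1 h1)⟩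
  obtain ⟨R⟩ : Nonempty (Sylow p G) := inferInstance
  have hR : ¬ (R : Subgroup G) ≤ center G := fun h1 =>
    not_dvd_index_of_sylow_le R (h1.trans (center_le_cent x)) (hx ▸ hd)
  have h1 : ∀ q : ℕ, q.Prime → q ∣ (center G).index → q = p := fun q hq hqd => by
    by_contra hqp
    have := Fact.mk hq
    exact ht.false_of_dvd R hR le_top hd hqp (by rwa [relIndex_top_right])
  have h2 : IsPGroup p (G ⧸ center G) := IsPGroup.of_card
    (Nat.eq_prime_pow_of_unique_prime_dvd Nat.card_pos.ne' fun hq hqd => h1 _ hq hqd)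
  obtain ⟨k, hk⟩ := h2.exists_card_eq
  obtain ⟨a, -, ha⟩ := (Nat.dvd_prime_pow hp).1
    (hk ▸ hx ▸ index_dvd_of_le (center_le_cent x) : n ∣ p ^ k)
  have hnil : Group.IsNilpotent G := by
    have := h2.isNilpotent
    exact Group.of_quotient_center_nilpotent this
  refine ⟨p, this, a, ha, fun P => ⟨inferInstance, ?_, center _, inferInstance, inferInstance, ?_⟩⟩
  · have hO := pPrimeCore_normal p G
    have h3 : pPrimeCore p G ≤ center G := le_of_coprime_card_index
      (by rw [index_eq_card, hk]; exact (coprime_card_pPrimeCore p G).pow_right k)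
    refine ⟨pPrimeCore p G, hO, CfsgLib.SolvStruct.index_eq_card_of_inf_eq_bot_of_sup_eq_top ?_ ?_,
      ⟨⟨fun a b => Subtype.ext (mem_center_iff.1 (h3 b.2) a)⟩⟩,
      fun x hx y _ => (mem_center_iff.1 (h3 hx) y).symm⟩
    · rw [inf_comm]
      exact isPGroup_inf_eq_bot_of_coprime P.isPGroup' (coprime_card_pPrimeCore p G)
    · rw [sup_comm, ← pCore_eq_sylow_of_normal P, pCore_sup_pPrimeCore_of_isNilpotent hp]
  · refine two_sizes_pow_mem_center P.isPGroup' n fun y => ?_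
    have h3 : centralizer ({(y : G)} : Set G) ⊔ P = ⊤ := top_le_iff.1 (by
      rw [← sylow_sup_eq_top_of_isPGroup_quotient P _ h2, sup_comm]
      exact sup_le_sup_right (center_le_cent _) _)
    rw [index_cent_subgroup, ← relIndex_sup_of_normal, h3, relIndex_top_right]
    exact h y

end CfsgLib.ClassSz
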